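import Mathlib

set_option autoImplicit false
set_option linter.unusedSectionVars false
set_option linter.unusedVariables false
set_option linter.style.haveILetI false

/-! P10 of S4993: commuting `p`- and `q`-subgroups covering a nilpotent quotient. -/

namespace Cfsg.Agent.Lib.S4993

universe u

variable {G : Type u} [Group G]

/-- Coprime fixed points in cosets. -/
theorem commuting_cover_aux [Finite G] {p q : ℕ} [Fact p.Prime] [Fact q.Prime] (hpq : p ≠ q)
    (F P' Q : Subgroup G) [hFn : F.Normal] (hP'p : IsPGroup p P') (hQq : IsPGroup q Q)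
    (hnorm : ∀ a ∈ P', ∀ y ∈ Q, a * y * a⁻¹ ∈ Q)
    (hcommF : ∀ a ∈ P', ∀ b ∈ Q, a * b * a⁻¹ * b⁻¹ ∈ F) :
    Q ≤ (Q ⊓ Subgroup.centralizer (P' : Set G)) ⊔ F := by
  classical
  intro x hx
  have hstab : ∀ a ∈ P', ∀ y : {y : G // y ∈ Q ∧ x⁻¹ * y ∈ F},
      a * y.1 * a⁻¹ ∈ Q ∧ x⁻¹ * (a * y.1 * a⁻¹) ∈ F := by
    intro a ha y
    refine ⟨hnorm a ha y.1 y.2.1, ?_⟩
    have h1 : x⁻¹ * (a * x * a⁻¹) ∈ F := by
      have h2 := hcommF a ha x hx
      have h3 : x⁻¹ * (a * x * a⁻¹) = x⁻¹ * (a * x * a⁻¹ * x⁻¹) * x⁻¹⁻¹ := by group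
      rw [h3]
      exact hFn.conj_mem _ h2 x⁻¹
    have h5 : a * (x⁻¹ * y.1) * a⁻¹ ∈ F := hFn.conj_mem _ y.2.2 a
    have h6 : x⁻¹ * (a * y.1 * a⁻¹) = (x⁻¹ * (a * x * a⁻¹)) * (a * (x⁻¹ * y.1) * a⁻¹) := by group
    rw [h6]
    exact F.mul_mem h1 h5
  letI act : MulAction P' {y : G // y ∈ Q ∧ x⁻¹ * y ∈ F} :=
    { smul := fun a y => ⟨a.1 * y.1 * a.1⁻¹, hstab a.1 a.2 y⟩
      one_smul := fun y => Subtype.ext (by
        change (1 : G) * y.1 * (1 : G)⁻¹ = y.1
        group)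
      mul_smul := fun a b y => Subtype.ext (by
        change (a.1 * b.1) * y.1 * (a.1 * b.1)⁻¹ = a.1 * (b.1 * y.1 * b.1⁻¹) * a.1⁻¹
        group) }
  have hcard : Nat.card {y : G // y ∈ Q ∧ x⁻¹ * y ∈ F} = Nat.card (Q ⊓ F : Subgroup G) := by
    refine Nat.card_congr ⟨fun y => ⟨x⁻¹ * y.1, Q.mul_mem (Q.inv_mem hx) y.2.1, y.2.2⟩,
      fun d => ⟨x * d.1, Q.mul_mem hx d.2.1, by
        rw [inv_mul_cancel_left]; exact d.2.2⟩, ?_, ?_⟩
    · intro y; apply Subtype.ext; simp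
    · intro d; apply Subtype.ext; simp
  have hDq : IsPGroup q (Q ⊓ F : Subgroup G) := hQq.to_le inf_le_left
  have hnd : ¬ p ∣ Nat.card {y : G // y ∈ Q ∧ x⁻¹ * y ∈ F} := by
    rw [hcard]
    obtain ⟨k, hk⟩ := IsPGroup.iff_card.mp hDq
    rw [hk]
    intro hd
    have h1 := (Fact.out : p.Prime).dvd_of_dvd_pow hd
    exact hpq ((Nat.prime_dvd_prime_iff_eq Fact.out Fact.out).mp h1)
  obtain ⟨y, hy⟩ := hP'p.nonempty_fixed_point_of_prime_not_dvd_card
    {y : G // y ∈ Q ∧ x⁻¹ * y ∈ F} hnd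
  have hyc : y.1 ∈ Subgroup.centralizer (P' : Set G) := by
    rw [Subgroup.mem_centralizer_iff]
    intro a ha
    have h1 := congrArg Subtype.val (hy ⟨a, ha⟩)
    have h2 : a * y.1 * a⁻¹ = y.1 := h1
    calc a * y.1 = a * y.1 * a⁻¹ * a := by group
      _ = y.1 * a := by rw [h2]
  have hxe : x = y.1 * (y.1⁻¹ * x) := by group
  rw [hxe]
  refine Subgroup.mul_mem_sup ⟨y.2.1, hyc⟩ ?_
  have h7 := F.inv_mem y.2.2
  have h8 : (x⁻¹ * y.1)⁻¹ = y.1⁻¹ * x := by group
  rwa [h8] at h7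

/-- Inside `N`, a Sylow `p`- and a Sylow `q`-subgroup generate. -/
theorem commuting_gen_aux [Finite G] {p q : ℕ} [Fact p.Prime] [Fact q.Prime]
    (hG : ∀ r : ℕ, r.Prime → r ∣ Nat.card G → r = p ∨ r = q) (Q : Sylow q G) (N : Subgroup G)
    (hQN : (Q : Subgroup G) ≤ N) (P₀ : Sylow p N) :
    N ≤ (P₀ : Subgroup N).map N.subtype ⊔ (Q : Subgroup G) := by
  classical
  have hP'N : (P₀ : Subgroup N).map N.subtype ≤ N := by
    rintro _ ⟨x, -, rfl⟩
    exact x.2
  have hHN : (P₀ : Subgroup N).map N.subtype ⊔ (Q : Subgroup G) ≤ N := sup_le hP'N hQN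
  have hidx : ((P₀ : Subgroup N).map N.subtype ⊔ (Q : Subgroup G)).relIndex N = 1 := by
    by_contra hne
    obtain ⟨r, hr, hrd⟩ := Nat.exists_prime_and_dvd hne
    have hrN : r ∣ Nat.card N := by
      have h1 : ((P₀ : Subgroup N).map N.subtype ⊔ (Q : Subgroup G)).relIndex N ∣ Nat.card N := by
        have := (((P₀ : Subgroup N).map N.subtype ⊔ (Q : Subgroup G)).subgroupOf N).card_mul_index
        exact Dvd.intro_left _ this
      exact hrd.trans h1
    have hrG : r ∣ Nat.card G := hrN.trans (Subgroup.card_subgroup_dvd_card N)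
    rcases hG r hr hrG with rfl | rfl
    · have h1 : (P₀ : Subgroup N) ≤
          ((P₀ : Subgroup N).map N.subtype ⊔ (Q : Subgroup G)).subgroupOf N := by
        intro x hx
        rw [Subgroup.mem_subgroupOf]
        exact Subgroup.mem_sup_left ⟨x, hx, rfl⟩
      have h2 := Subgroup.index_dvd_of_le h1
      exact P₀.not_dvd_index (hrd.trans h2)
    · have h1 : ((P₀ : Subgroup N).map N.subtype ⊔ (Q : Subgroup G)).relIndex N ∣
          ((P₀ : Subgroup N).map N.subtype ⊔ (Q : Subgroup G)).index := by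
        rw [← Subgroup.relIndex_mul_index hHN]
        exact dvd_mul_right _ _
      have h2 : ((P₀ : Subgroup N).map N.subtype ⊔ (Q : Subgroup G)).index ∣
          (Q : Subgroup G).index :=
        Subgroup.index_dvd_of_le le_sup_right
      exact Q.not_dvd_index (hrd.trans (h1.trans h2))
  exact Subgroup.relIndex_eq_one.mp hidx

theorem exists_commuting [Finite G] {p q : ℕ} [Fact p.Prime] [Fact q.Prime] (hpq : p ≠ q)
    (hG : ∀ r : ℕ, r.Prime → r ∣ Nat.card G → r = p ∨ r = q) (F : Subgroup G) [F.Normal]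
    (hnil : Group.IsNilpotent (G ⧸ F)) :
    ∃ P' Q' : Subgroup G, IsPGroup p P' ∧ IsPGroup q Q' ∧ (∀ a ∈ P', ∀ b ∈ Q', a * b = b * a) ∧
      P' ⊔ Q' ⊔ F = ⊤ := by
  classical
  haveI : Group.IsNilpotent (G ⧸ F) := hnil
  have hπ : Function.Surjective (QuotientGroup.mk' F) := QuotientGroup.mk'_surjective F
  obtain ⟨Q⟩ : Nonempty (Sylow q G) := inferInstance
  have hQFn : ((Q : Subgroup G) ⊔ F).Normal := by
    have h1 : (((Q.mapSurjective hπ : Sylow q (G ⧸ F)) : Subgroup (G ⧸ F))).Normal := inferInstance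
    rw [Sylow.coe_mapSurjective] at h1
    have h2 := h1.comap (QuotientGroup.mk' F)
    rw [Subgroup.comap_map_eq] at h2
    rw [QuotientGroup.ker_mk' F] at h2
    exact h2
  haveI := hQFn
  have hFrat : Subgroup.normalizer (Q : Set G) ⊔ ((Q : Subgroup G) ⊔ F) = ⊤ :=
    Sylow.normalizer_sup_eq_top' Q le_sup_left
  obtain ⟨P₀⟩ : Nonempty (Sylow p (Subgroup.normalizer (Q : Set G))) := inferInstance
  obtain ⟨P', hP'def⟩ : ∃ P', P' = ((P₀ : Subgroup (Subgroup.normalizer (Q : Set G))).map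
      (Subgroup.normalizer (Q : Set G)).subtype) := ⟨_, rfl⟩
  have hP'p : IsPGroup p P' := by
    rw [hP'def]
    exact P₀.isPGroup'.map _
  have hP'N : P' ≤ Subgroup.normalizer (Q : Set G) := by
    rw [hP'def]
    rintro _ ⟨x, -, rfl⟩
    exact x.2
  have hQN : (Q : Subgroup G) ≤ Subgroup.normalizer (Q : Set G) := Subgroup.le_normalizer
  have hNle : Subgroup.normalizer (Q : Set G) ≤ P' ⊔ (Q : Subgroup G) := by
    rw [hP'def]
    exact commuting_gen_aux hG Q _ hQN P₀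
  clear hP'def
  have hnorm : ∀ a ∈ P', ∀ y ∈ (Q : Subgroup G), a * y * a⁻¹ ∈ (Q : Subgroup G) := by
    intro a ha y hy
    exact (Subgroup.mem_normalizer_iff.mp (hP'N ha) y).mp hy
  have hcommF : ∀ a ∈ P', ∀ b ∈ (Q : Subgroup G), a * b * a⁻¹ * b⁻¹ ∈ F := by
    intro a ha b hb
    obtain ⟨S, hS⟩ := (hP'p.map (QuotientGroup.mk' F)).exists_le_sylow
    obtain ⟨T, hT⟩ := (Q.isPGroup'.map (QuotientGroup.mk' F)).exists_le_sylow
    have hdis : Disjoint (S : Subgroup (G ⧸ F)) (T : Subgroup (G ⧸ F)) :=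
      IsPGroup.disjoint_of_ne p q hpq _ _ S.isPGroup' T.isPGroup'
    have hc : Commute (QuotientGroup.mk' F a) (QuotientGroup.mk' F b) :=
      Subgroup.commute_of_normal_of_disjoint _ _ inferInstance inferInstance hdis _ _
        (hS (Subgroup.mem_map_of_mem _ ha)) (hT (Subgroup.mem_map_of_mem _ hb))
    have h3 : QuotientGroup.mk' F (a * b * a⁻¹ * b⁻¹) = 1 := by
      simp only [map_mul, map_inv]
      rw [hc.eq]
      group
    have h4 : a * b * a⁻¹ * b⁻¹ ∈ (QuotientGroup.mk' F).ker := h3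
    rwa [QuotientGroup.ker_mk' F] at h4
  have hcov := commuting_cover_aux hpq F P' (Q : Subgroup G) hP'p Q.isPGroup' hnorm hcommF
  refine ⟨P', (Q : Subgroup G) ⊓ Subgroup.centralizer (P' : Set G), hP'p,
    Q.isPGroup'.to_le inf_le_left, ?_, ?_⟩
  · intro a ha b hb
    exact (Subgroup.mem_centralizer_iff.mp hb.2) a ha
  · rw [eq_top_iff, ← hFrat]
    refine sup_le (hNle.trans (sup_le (le_sup_left.trans le_sup_left) ?_)) (sup_le ?_ le_sup_right)
    · refine hcov.trans (sup_le ?_ le_sup_right)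
      exact le_sup_right.trans le_sup_left
    · refine hcov.trans (sup_le ?_ le_sup_right)
      exact le_sup_right.trans le_sup_left

end Cfsg.Agent.Lib.S4993
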