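import Mathlib
import Cfsg.Prelude.Def_Characters

set_option autoImplicit false
set_option linter.unusedSectionVars false
set_option linter.unusedVariables false
set_option linter.style.haveILetI false

/-! Definitions for S4993: primitive characters and the scalar subgroup. -/

namespace Cfsg.Agent.Lib.S4993

open Cfsg

universe u

variable {G : Type u} [Group G]

/-- Primitive characters. -/
def IsPrim [Fintype G] (χ : G → ℂ) : Prop :=
  ¬ ∃ H : Subgroup G, H ≠ ⊤ ∧ ∃ θ : H → ℂ, IsCharacter H θ ∧ indFun H θ = χ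

/-- Elements acting as scalars. -/
def scal {n : ℕ} (ρ : Representation ℂ G (Fin n → ℂ)) : Subgroup G where
  carrier := {g | ∃ c : ℂ, ∀ v, ρ g v = c • v}
  one_mem' := ⟨1, by simp⟩
  mul_mem' := by
    rintro a b ⟨c, hc⟩ ⟨d, hd⟩
    refine ⟨c * d, fun v => ?_⟩
    rw [map_mul, Module.End.mul_apply, hd, map_smul, hc, smul_smul, mul_comm]
  inv_mem' := by
    rintro a ⟨c, hc⟩
    have h1 : ∀ v, c • ρ a⁻¹ v = v := by
      intro v
      rw [← hc, ← Module.End.mul_apply, ← map_mul]
      simp
    by_cases h0 : c = 0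
    · refine ⟨0, fun v => ?_⟩
      have h2 : ∀ w : Fin n → ℂ, w = 0 := fun w => by
        have := h1 w
        rw [h0, zero_smul] at this
        exact this.symm
      rw [h2 (ρ a⁻¹ v), h2 v, smul_zero]
    · refine ⟨c⁻¹, fun v => ?_⟩
      conv_rhs => rw [← h1 v]
      rw [smul_smul, inv_mul_cancel₀ h0, one_smul]

end Cfsg.Agent.Lib.S4993
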