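import Mathlib
import Cfsg.Prelude.Def_Solvable
import Cfsg.Agent.Lib.Nilpotent.Fitting

/-! S4993 piece P11: the Fitting subgroup of a `{p,q}`-group and commuting cores. -/

set_option autoImplicit false

namespace Cfsg.Agent.Lib.S4993

open Cfsg

universe u

variable {G : Type u} [Group G]

theorem fitting_le_sup [Finite G] {p q : ℕ} [Fact p.Prime] [Fact q.Prime]
    (hG : ∀ r : ℕ, r.Prime → r ∣ Nat.card G → r = p ∨ r = q) :
    fittingSubgroup G ≤ pCore p G ⊔ pCore q G := by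
  rw [Cfsg.Agent.Lib.Nilpotent.Fitting.fittingSubgroup_eq_iSup_primeFactors]
  refine iSup_le fun ⟨r, hr⟩ => ?_
  have hr' := Nat.mem_primeFactors.mp hr
  rcases hG r hr'.1 hr'.2.1 with rfl | rfl
  · exact le_sup_left
  · exact le_sup_right

theorem pCore_comm [Finite G] {p q : ℕ} [Fact p.Prime] [Fact q.Prime] (hpq : p ≠ q) :
    ∀ r ∈ pCore p G, ∀ s ∈ pCore q G, r * s = s * r := by
  intro r hr s hs
  have hdis : Disjoint (pCore p G) (pCore q G) :=
    IsPGroup.disjoint_of_ne p q hpq _ _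
      (Cfsg.Agent.Lib.Nilpotent.Fitting.isPGroup_pCore p)
      (Cfsg.Agent.Lib.Nilpotent.Fitting.isPGroup_pCore q)
  exact Subgroup.commute_of_normal_of_disjoint _ _
    (Cfsg.Agent.Lib.Nilpotent.Fitting.pCore_normal p)
    (Cfsg.Agent.Lib.Nilpotent.Fitting.pCore_normal q) hdis r s hr hs

end Cfsg.Agent.Lib.S4993
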