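import Mathlib

/-! S4993 piece P6: pure group theory; `R/(R ∩ T)` is abelian. -/

set_option autoImplicit false
set_option linter.unusedSectionVars false
set_option linter.unusedVariables false
set_option linter.style.haveILetI false
set_option linter.style.longLine false

namespace Cfsg.Agent.Lib.S4993

namespace GroupDAux

theorem card_hom_le (A : Type*) [Group A] [Finite A] : Nat.card (A →* ℂˣ) ≤ Nat.card A := by
  have e : Nat.card (A →* ℂˣ) = Nat.card (Abelianization A →* ℂˣ) :=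
    Nat.card_congr Abelianization.lift
  rw [e, CommGroup.card_monoidHom_of_hasEnoughRootsOfUnity (Abelianization A) ℂ]
  exact Nat.card_le_card_of_surjective _ (QuotientGroup.mk'_surjective _)

end GroupDAux

theorem comm_mem_of_hab {G : Type*} [Group G] [Finite G] {p : ℕ} [Fact p.Prime] (R K T : Subgroup G) [hRn : R.Normal]
    [hKn : K.Normal] [hTn : T.Normal] (hR : IsPGroup p R) (hKT : K ≤ T)
    (hT : ∀ t ∈ T, ∀ g : G, t * g * t⁻¹ * g⁻¹ ∈ K)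
    (lam : T →* ℂˣ) (hlam : ∀ t : T, lam t = 1 ↔ (t : G) ∈ K)
    (hab : ∀ U : Subgroup G, U.Normal → (∀ x ∈ U, ∀ y ∈ U, x * y * x⁻¹ * y⁻¹ ∈ K) → U ≤ T) :
    ∀ x ∈ R, ∀ y ∈ R, x * y * x⁻¹ * y⁻¹ ∈ T := by
  classical
  -- the total function
  let L : G → ℂˣ := fun g => if h : g ∈ T then lam ⟨g, h⟩ else 1
  have Lmul : ∀ a ∈ T, ∀ b ∈ T, L (a * b) = L a * L b := by
    intro a ha b hb
    simp only [L, dif_pos ha, dif_pos hb, dif_pos (T.mul_mem ha hb)]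
    rw [← map_mul]
    rfl
  have Lone : ∀ t ∈ T, (L t = 1 ↔ t ∈ K) := by
    intro t ht
    simp only [L, dif_pos ht]
    exact hlam ⟨t, ht⟩
  have L1 : L 1 = 1 := (Lone 1 (one_mem _)).2 (one_mem _)
  have Linv : ∀ a ∈ T, L a⁻¹ = (L a)⁻¹ := by
    intro a ha
    have h := Lmul a ha a⁻¹ (inv_mem ha)
    rw [mul_inv_cancel, L1] at h
    exact eq_inv_of_mul_eq_one_right h.symm
  have hcomm_K : ∀ t ∈ T, ∀ g, g * t * g⁻¹ * t⁻¹ ∈ K := by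
    intro t ht g
    have h := K.inv_mem (hT t ht g)
    have e : (t * g * t⁻¹ * g⁻¹)⁻¹ = g * t * g⁻¹ * t⁻¹ := by group
    rwa [e] at h
  have Lconj : ∀ t ∈ T, ∀ g, L (g * t * g⁻¹) = L t := by
    intro t ht g
    have h1 : g * t * g⁻¹ ∈ T := hTn.conj_mem t ht g
    have h2 := hcomm_K t ht g
    have h3 : L (g * t * g⁻¹ * t⁻¹) = 1 := (Lone _ (hKT h2)).2 h2
    rw [Lmul _ h1 _ (inv_mem ht), Linv t ht] at h3
    exact mul_inv_eq_one.1 h3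
  -- the second centre
  let Z₁ : Subgroup G :=
    { carrier := {m | m ∈ R ∧ ∀ r ∈ R, m * r * m⁻¹ * r⁻¹ ∈ T}
      one_mem' := ⟨one_mem _, fun r _ => by simp⟩
      mul_mem' := by
        rintro a b ⟨ha, ha'⟩ ⟨hb, hb'⟩
        refine ⟨mul_mem ha hb, fun r hr => ?_⟩
        have e : a * b * r * (a * b)⁻¹ * r⁻¹ = a * (b * r * b⁻¹ * r⁻¹) * a⁻¹ * (a * r * a⁻¹ * r⁻¹) := by group
        rw [e]
        exact mul_mem (hTn.conj_mem _ (hb' r hr) a) (ha' r hr)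
      inv_mem' := by
        rintro a ⟨ha, ha'⟩
        refine ⟨inv_mem ha, fun r hr => ?_⟩
        have e : a⁻¹ * r * a⁻¹⁻¹ * r⁻¹ = a⁻¹ * (a * r * a⁻¹ * r⁻¹)⁻¹ * a⁻¹⁻¹ := by group
        rw [e]
        exact hTn.conj_mem _ (inv_mem (ha' r hr)) a⁻¹ }
  have hZ₁n : Z₁.Normal := by
    constructor
    rintro m ⟨hm, hm'⟩ g
    refine ⟨hRn.conj_mem m hm g, fun r hr => ?_⟩
    have h1 : g⁻¹ * r * g⁻¹⁻¹ ∈ R := hRn.conj_mem r hr g⁻¹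
    have e : g * m * g⁻¹ * r * (g * m * g⁻¹)⁻¹ * r⁻¹ =
        g * (m * (g⁻¹ * r * g⁻¹⁻¹) * m⁻¹ * (g⁻¹ * r * g⁻¹⁻¹)⁻¹) * g⁻¹ := by group
    rw [e]
    exact hTn.conj_mem _ (hm' _ h1) g
  -- the centralizer of `Z₁` mod `K`
  let C : Subgroup G :=
    { carrier := {r | r ∈ R ∧ ∀ m ∈ Z₁, m * r * m⁻¹ * r⁻¹ ∈ K}
      one_mem' := ⟨one_mem _, fun m _ => by simp⟩
      mul_mem' := by
        rintro a b ⟨ha, ha'⟩ ⟨hb, hb'⟩
        refine ⟨mul_mem ha hb, fun m hm => ?_⟩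
        have e : m * (a * b) * m⁻¹ * (a * b)⁻¹ = (m * a * m⁻¹ * a⁻¹) * (a * (m * b * m⁻¹ * b⁻¹) * a⁻¹) := by group
        rw [e]
        exact mul_mem (ha' m hm) (hKn.conj_mem _ (hb' m hm) a)
      inv_mem' := by
        rintro a ⟨ha, ha'⟩
        refine ⟨inv_mem ha, fun m hm => ?_⟩
        have e : m * a⁻¹ * m⁻¹ * a⁻¹⁻¹ = a⁻¹ * (m * a * m⁻¹ * a⁻¹)⁻¹ * a⁻¹⁻¹ := by group
        rw [e]
        exact hKn.conj_mem _ (inv_mem (ha' m hm)) a⁻¹ }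
  have hCn : C.Normal := by
    constructor
    rintro r ⟨hr, hr'⟩ g
    refine ⟨hRn.conj_mem r hr g, fun m hm => ?_⟩
    have h1 : g⁻¹ * m * g⁻¹⁻¹ ∈ Z₁ := hZ₁n.conj_mem m hm g⁻¹
    have e : m * (g * r * g⁻¹) * m⁻¹ * (g * r * g⁻¹)⁻¹ =
        g * ((g⁻¹ * m * g⁻¹⁻¹) * r * (g⁻¹ * m * g⁻¹⁻¹)⁻¹ * r⁻¹) * g⁻¹ := by group
    rw [e]
    exact hKn.conj_mem _ (hr' _ h1) g
  have hUT : Z₁ ⊓ C ≤ T := by
    refine hab _ (Subgroup.normal_inf_normal Z₁ C) ?_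
    intro x hx y hy
    exact hy.2.2 x hx.1
  -- the key identity
  have hKey : ∀ x ∈ R, ∀ y ∈ R, (∀ m ∈ Z₁, L (m * x * m⁻¹ * x⁻¹) = L (m * y * m⁻¹ * y⁻¹)) → x⁻¹ * y ∈ C := by
    intro x hx y hy h
    refine ⟨mul_mem (inv_mem hx) hy, fun m hm => ?_⟩
    have hs := hm.2 x hx
    have ht := hm.2 y hy
    have e : m * (x⁻¹ * y) * m⁻¹ * (x⁻¹ * y)⁻¹ =
        x⁻¹ * ((m * x * m⁻¹ * x⁻¹)⁻¹ * (m * y * m⁻¹ * y⁻¹)) * x⁻¹⁻¹ := by group
    rw [e]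
    refine hKn.conj_mem _ ?_ x⁻¹
    rw [← Lone _ (mul_mem (inv_mem hs) ht), Lmul _ (inv_mem hs) _ ht, Linv _ hs, h m hm, inv_mul_cancel]
  -- the induced homomorphisms
  let φ : ↥R → (↥Z₁ →* ℂˣ) := fun r => MonoidHom.mk' (fun m : ↥Z₁ => L ((m : G) * r * (m : G)⁻¹ * (r : G)⁻¹)) (by
      intro a b
      have hb := b.2.2 r r.2
      have ha := a.2.2 r r.2
      have e : ((a * b : ↥Z₁) : G) * r * ((a * b : ↥Z₁) : G)⁻¹ * (r : G)⁻¹ =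
          ((a : G) * ((b : G) * r * (b : G)⁻¹ * (r : G)⁻¹) * (a : G)⁻¹) * ((a : G) * r * (a : G)⁻¹ * (r : G)⁻¹) := by
        push_cast
        group
      rw [e, Lmul _ (hTn.conj_mem _ hb a) _ ha, Lconj _ hb, mul_comm])
  haveI hDn : (T.subgroupOf Z₁).Normal := Subgroup.normal_subgroupOf
  let f : ↥R → ((↥Z₁ ⧸ T.subgroupOf Z₁) →* ℂˣ) := fun r =>
    QuotientGroup.lift (T.subgroupOf Z₁) (φ r) (by
      intro m hm
      have hm' : (m : G) ∈ T := Subgroup.mem_subgroupOf.1 hm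
      exact (Lone _ (hKT (hT _ hm' _))).2 (hT _ hm' _))
  have hf : ∀ (r : ↥R) (m : ↥Z₁), f r (m : ↥Z₁ ⧸ T.subgroupOf Z₁) = L ((m : G) * r * (m : G)⁻¹ * (r : G)⁻¹) :=
    fun r m => rfl
  let ι : ↥Z₁ → ↥R := fun z => ⟨z, z.2.1⟩
  let Φ : (↥Z₁ ⧸ T.subgroupOf Z₁) → ((↥Z₁ ⧸ T.subgroupOf Z₁) →* ℂˣ) := fun a => f (ι a.out)
  have hinj : Function.Injective Φ := by
    intro a b hab'
    have hx := (ι a.out).2
    have hy := (ι b.out).2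
    have h1 : ((a.out : G))⁻¹ * (b.out : G) ∈ C := by
      apply hKey _ hx _ hy
      intro m hm
      have := congrArg (fun F => F ((⟨m, hm⟩ : ↥Z₁) : ↥Z₁ ⧸ T.subgroupOf Z₁)) hab'
      exact this
    have h2 : ((a.out : G))⁻¹ * (b.out : G) ∈ Z₁ := mul_mem (inv_mem a.out.2) b.out.2
    have h3 := hUT ⟨h2, h1⟩
    rw [← QuotientGroup.out_eq' a, ← QuotientGroup.out_eq' b]
    apply QuotientGroup.eq.2
    rw [Subgroup.mem_subgroupOf]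
    exact h3
  have hbij : Function.Bijective Φ := Function.Injective.bijective_of_nat_card_le hinj (GroupDAux.card_hom_le _)
  have hdual : ∀ r ∈ R, ∃ z ∈ Z₁, z⁻¹ * r ∈ C := by
    intro r hr
    obtain ⟨a, ha⟩ := hbij.2 (f ⟨r, hr⟩)
    refine ⟨a.out, a.out.2, hKey _ a.out.2.1 _ hr ?_⟩
    intro m hm
    have := congrArg (fun F => F ((⟨m, hm⟩ : ↥Z₁) : ↥Z₁ ⧸ T.subgroupOf Z₁)) ha
    exact this
  -- `C ≤ T`
  have hCT : C ≤ T := by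
    by_contra hCT
    obtain ⟨x, hxC, hxT⟩ := SetLike.not_le_iff_exists.1 hCT
    have hCp : IsPGroup p ↥C := hR.to_le (fun r hr => hr.1)
    haveI hD : (T.subgroupOf C).Normal := Subgroup.normal_subgroupOf
    have hQp : IsPGroup p (↥C ⧸ T.subgroupOf C) := hCp.to_quotient _
    haveI : Nontrivial (↥C ⧸ T.subgroupOf C) := by
      refine ⟨⟨((⟨x, hxC⟩ : ↥C) : ↥C ⧸ T.subgroupOf C), 1, fun h => hxT ?_⟩⟩
      have := (QuotientGroup.eq_one_iff _).1 h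
      exact Subgroup.mem_subgroupOf.1 this
    haveI := hQp.center_nontrivial
    obtain ⟨z, hz⟩ := exists_ne (1 : Subgroup.center (↥C ⧸ T.subgroupOf C))
    obtain ⟨w, hw⟩ := QuotientGroup.mk_surjective (z : ↥C ⧸ T.subgroupOf C)
    have hwT : (w : G) ∉ T := by
      intro h
      apply hz
      apply Subtype.ext
      rw [← hw]
      exact (QuotientGroup.eq_one_iff _).2 (Subgroup.mem_subgroupOf.2 h)
    have hwc : ∀ c ∈ C, (w : G) * c * (w : G)⁻¹ * c⁻¹ ∈ T := by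
      intro c hc
      have h1 := Subgroup.mem_center_iff.1 z.2 ((⟨c, hc⟩ : ↥C) : ↥C ⧸ T.subgroupOf C)
      rw [← hw, ← QuotientGroup.mk_mul, ← QuotientGroup.mk_mul] at h1
      have h2 := (QuotientGroup.eq.1 h1.symm)
      have h3 : ((w * ⟨c, hc⟩ : ↥C)⁻¹ * (⟨c, hc⟩ * w) : ↥C).1 ∈ T := Subgroup.mem_subgroupOf.1 h2
      have e : (w : G) * c * (w : G)⁻¹ * c⁻¹ = ((w : G) * c) * (((w * ⟨c, hc⟩ : ↥C)⁻¹ * (⟨c, hc⟩ * w) : ↥C).1)⁻¹ * ((w : G) * c)⁻¹ := by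
        push_cast
        group
      rw [e]
      exact hTn.conj_mem _ (inv_mem h3) _
    have hwZ : (w : G) ∈ Z₁ := by
      refine ⟨w.2.1, fun r hr => ?_⟩
      obtain ⟨z', hz', hc'⟩ := hdual r hr
      have h1 := hwc _ hc'
      have h2 : z' * (w : G) * z'⁻¹ * (w : G)⁻¹ ∈ K := w.2.2 z' hz'
      have e : (w : G) * r * (w : G)⁻¹ * r⁻¹ = ((z' * (w : G) * z'⁻¹ * (w : G)⁻¹)⁻¹) * (z' * ((w : G) * (z'⁻¹ * r) * (w : G)⁻¹ * (z'⁻¹ * r)⁻¹) * z'⁻¹) := by group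
      rw [e]
      exact mul_mem (inv_mem (hKT h2)) (hTn.conj_mem _ h1 z')
    exact hwT (hUT ⟨hwZ, w.2⟩)
  intro x hx y hy
  obtain ⟨z, hz, hc⟩ := hdual x hx
  have hcT := hCT hc
  have hcZ : z⁻¹ * x ∈ Z₁ := ⟨hc.1, fun r _ => hKT (hT _ hcT r)⟩
  have hxZ : x ∈ Z₁ := by
    have := mul_mem hz hcZ
    simpa using this
  exact hxZ.2 y hy

end Cfsg.Agent.Lib.S4993
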