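import Mathlib
import Cfsg.Agent.Lib.S4993.Defs

/-! Piece P7 of S4993: no fixed points modulo the scalar subgroup. -/

set_option autoImplicit false
set_option linter.unusedSectionVars false
set_option linter.unusedVariables false
set_option linter.style.haveILetI false

namespace Cfsg.Agent.Lib.S4993

open Cfsg

universe u

namespace GroupE

/-- A nontrivial normal `p`-subgroup centralizing a normal subgroup of `p`-power index meets the
center. -/
theorem exists_central {Γ : Type*} [Group Γ] [Finite Γ] {p : ℕ} [Fact p.Prime]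
    (Λ A : Subgroup Γ) [Λ.Normal] [hA : A.Normal] (hΛ : IsPGroup p (Γ ⧸ Λ)) (hAp : IsPGroup p A)
    (hc : ∀ l ∈ Λ, ∀ a ∈ A, l * a = a * l) (hne : A ≠ ⊥) :
    ∃ a ∈ A, a ≠ 1 ∧ ∀ g : Γ, a * g = g * a := by
  classical
  let φ : Γ →* MulAut A := MulAut.conjNormal
  have hφapp : ∀ (g : Γ) (a : A), ((φ g a : A) : Γ) = g * a * g⁻¹ := fun g a =>
    MulAut.conjNormal_apply g a
  have hφ : Λ ≤ φ.ker := by
    intro l hl
    rw [MonoidHom.mem_ker]
    ext a
    show ((φ l a : A) : Γ) = a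
    rw [hφapp, hc l hl a a.2]
    group
  let ψ : Γ ⧸ Λ →* MulAut A := QuotientGroup.lift Λ φ hφ
  letI : MulAction (Γ ⧸ Λ) A := MulAction.compHom A ψ
  have hact : ∀ (g : Γ) (a : A), ((g : Γ ⧸ Λ) • a : A) = φ g a := fun g a => rfl
  have hfix1 : (1 : A) ∈ MulAction.fixedPoints (Γ ⧸ Λ) A := by
    intro x
    obtain ⟨g, rfl⟩ := QuotientGroup.mk'_surjective Λ x
    show φ g 1 = 1
    exact map_one _
  have hdvd : p ∣ Nat.card A := by
    have hnt : Nontrivial A := (Subgroup.nontrivial_iff_ne_bot A).2 hne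
    obtain ⟨n, hn⟩ := IsPGroup.iff_card.1 hAp
    have hn0 : n ≠ 0 := by
      rintro rfl
      rw [pow_zero] at hn
      have := Finite.one_lt_card (α := A)
      omega
    rw [hn]
    exact dvd_pow_self p hn0
  obtain ⟨b, hb, hb1⟩ := hΛ.exists_fixed_point_of_prime_dvd_card_of_fixed_point A hdvd hfix1
  refine ⟨b, b.2, fun h => hb1 (Subtype.ext h.symm), fun g => ?_⟩
  have h2 : φ g b = b := hb (g : Γ ⧸ Λ)
  have h3 := congrArg (Subtype.val) h2
  rw [hφapp] at h3
  have h4 : g * (b : Γ) = b * g := by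
    calc g * (b : Γ) = (g * b * g⁻¹) * g := by group
      _ = b * g := by rw [h3]
  exact h4.symm

end GroupE

variable {G : Type u} [Group G]

theorem fix_mem_of_hab [Finite G] {p : ℕ} [Fact p.Prime] (R K T L : Subgroup G) [R.Normal]
    [K.Normal] [T.Normal] [L.Normal] (hR : IsPGroup p R) (hKT : K ≤ T)
    (hT : ∀ t ∈ T, ∀ g : G, t * g * t⁻¹ * g⁻¹ ∈ K)
    (hab : ∀ U : Subgroup G, U.Normal → (∀ x ∈ U, ∀ y ∈ U, x * y * x⁻¹ * y⁻¹ ∈ K) → U ≤ T)
    (hRab : ∀ x ∈ R, ∀ y ∈ R, x * y * x⁻¹ * y⁻¹ ∈ T) (hL : IsPGroup p (G ⧸ L)) :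
    ∀ x ∈ R, (∀ l ∈ L, x * l * x⁻¹ * l⁻¹ ∈ T) → x ∈ T := by
  classical
  intro x hxR hxL
  by_contra hxT
  let mk := QuotientGroup.mk' T
  have hmk : Function.Surjective mk := QuotientGroup.mk'_surjective T
  have hker : ∀ y : G, mk y = 1 ↔ y ∈ T := fun y => by
    rw [← MonoidHom.mem_ker, QuotientGroup.ker_mk']
  let Λ : Subgroup (G ⧸ T) := L.map mk
  have hΛn : Λ.Normal := Subgroup.Normal.map inferInstance mk hmk
  let A : Subgroup (G ⧸ T) := R.map mk ⊓ Subgroup.centralizer (Λ : Set (G ⧸ T))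
  have hRn : (R.map mk).Normal := Subgroup.Normal.map inferInstance mk hmk
  have hCn : (Subgroup.centralizer (Λ : Set (G ⧸ T))).Normal := by
    haveI := hΛn
    exact Subgroup.normal_centralizer
  have hAn : A.Normal := Subgroup.normal_inf_normal _ _
  have hΛp : IsPGroup p ((G ⧸ T) ⧸ Λ) := by
    intro z
    obtain ⟨y, rfl⟩ := QuotientGroup.mk'_surjective Λ z
    obtain ⟨g, rfl⟩ := hmk y
    obtain ⟨k, hk⟩ := hL (g : G ⧸ L)
    refine ⟨k, ?_⟩
    have h1 : g ^ p ^ k ∈ L := by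
      rw [← QuotientGroup.eq_one_iff, QuotientGroup.mk_pow]
      exact hk
    rw [← map_pow, ← map_pow, ← MonoidHom.mem_ker, QuotientGroup.ker_mk']
    exact Subgroup.mem_map_of_mem mk h1
  have hAp : IsPGroup p A := by
    have h1 : IsPGroup p (R.map mk) := hR.map mk
    exact h1.to_le inf_le_left
  have hxA : mk x ∈ A := by
    refine ⟨Subgroup.mem_map_of_mem mk hxR, ?_⟩
    refine Subgroup.mem_centralizer_iff.2 ?_
    rintro z hz
    obtain ⟨l, hl, rfl⟩ := hz
    have h1 := (hker _).2 (hxL l hl)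
    simp only [map_mul, map_inv] at h1
    have h2 : mk x * mk l = mk l * mk x := by
      calc mk x * mk l = (mk x * mk l * (mk x)⁻¹ * (mk l)⁻¹) * (mk l * mk x) := by group
        _ = mk l * mk x := by rw [h1, one_mul]
    exact h2.symm
  have hx1 : mk x ≠ 1 := fun h => hxT ((hker x).1 h)
  have hne : A ≠ ⊥ := fun h => hx1 (by
    have := hxA
    rw [h, Subgroup.mem_bot] at this
    exact this)
  haveI := hΛn
  haveI := hAn
  obtain ⟨a, haA, ha1, hac⟩ := GroupE.exists_central Λ A hΛp hAp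
    (fun l hl a ha => Subgroup.mem_centralizer_iff.1 ha.2 l hl) hne
  obtain ⟨y₀, -, rfl⟩ := haA.1
  let π := QuotientGroup.mk' K
  have hK : ∀ y : G, π y = 1 ↔ y ∈ K := fun y => by
    rw [← MonoidHom.mem_ker, QuotientGroup.ker_mk']
  have hcentral : ∀ t ∈ T, ∀ g : G, Commute (π t) (π g) := by
    intro t ht g
    have h1 := (hK _).2 (hT t ht g)
    simp only [map_mul, map_inv] at h1
    show π t * π g = π g * π t
    calc π t * π g = (π t * π g * (π t)⁻¹ * (π g)⁻¹) * (π g * π t) := by group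
      _ = π g * π t := by rw [h1, one_mul]
  let Z : Subgroup (G ⧸ T) := Subgroup.zpowers (mk y₀)
  have hZn : Z.Normal := by
    refine ⟨fun n hn g => ?_⟩
    obtain ⟨i, rfl⟩ := Subgroup.mem_zpowers_iff.1 hn
    have h1 : Commute g (mk y₀ ^ i) := ((show Commute (mk y₀) g from hac g).zpow_left i).symm
    rw [h1.eq, mul_inv_cancel_right]
    exact ⟨i, rfl⟩
  let U : Subgroup G := Z.comap mk
  have hUn : U.Normal := Subgroup.Normal.comap hZn mk
  have hform : ∀ y ∈ U, ∃ (i : ℤ) (t : G), t ∈ T ∧ y = y₀ ^ i * t := by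
    intro y hy
    obtain ⟨i, hi⟩ := Subgroup.mem_zpowers_iff.1 (show mk y ∈ Z from hy)
    refine ⟨i, (y₀ ^ i)⁻¹ * y, ?_, by group⟩
    rw [← hker, map_mul, map_inv, map_zpow, hi, inv_mul_cancel]
  have hUab : ∀ x₁ ∈ U, ∀ y₁ ∈ U, x₁ * y₁ * x₁⁻¹ * y₁⁻¹ ∈ K := by
    intro x₁ hx₁ y₁ hy₁
    obtain ⟨i, t, ht, rfl⟩ := hform x₁ hx₁
    obtain ⟨j, s, hs, rfl⟩ := hform y₁ hy₁
    rw [← hK]
    have hcomm : Commute (π (y₀ ^ i) * π t) (π (y₀ ^ j) * π s) := by
      refine Commute.mul_left (Commute.mul_right ?_ ?_) ?_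
      · rw [map_zpow, map_zpow]
        exact Commute.zpow_zpow_self _ _ _
      · exact (hcentral s hs _).symm
      · rw [← map_mul]
        exact hcentral t ht _
    simp only [map_mul, map_inv]
    rw [hcomm.eq]
    group
  have hUT := hab U hUn hUab
  have hy₀ : y₀ ∈ U := Subgroup.mem_zpowers (mk y₀)
  exact ha1 ((hker y₀).2 (hUT hy₀))

end Cfsg.Agent.Lib.S4993
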