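import Mathlib
import Cfsg.Prelude.Def_Characters
import Cfsg.Agent.Lib.Char.CliffordCorr
import Cfsg.Agent.Lib.Char.GallagherAvg
import Cfsg.Agent.Lib.Char.Monomial
import Cfsg.Agent.Lib.Char.CompleteCor
import Cfsg.Agent.Lib.S4993.Defs

set_option autoImplicit false

/-! A primitive irreducible character restricts homogeneously to every normal subgroup. -/

namespace Cfsg.Agent.Lib.S4993

open Cfsg

universe u

variable {G : Type u} [Group G]

theorem homog [Fintype G] {χ : G → ℂ} (hχ : IsIrrCharacter G χ) (hprim : IsPrim χ)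
    (N : Subgroup G) [N.Normal] [Fintype N] :
    ∃ ψ : N → ℂ, IsIrrCharacter N ψ ∧ ∃ e : ℕ, ∀ n : N, χ n = e * ψ n := by
  classical
  have hc : IsCharacter G χ := Cfsg.Agent.Lib.Char.Basic.isCharacter_of_isIrrCharacter hχ
  have hK : IsCharacter N (fun n : N => χ n) :=
    Cfsg.Agent.Lib.Char.Basic.isCharacter_restrict hc N
  have h1 : (fun n : N => χ n) 1 ≠ 0 := by
    simpa using Cfsg.Agent.Lib.Char.Ortho.irr_apply_one_ne_zero hχ
  obtain ⟨ϑ, hϑ, hcon⟩ := Cfsg.Agent.Lib.Char.CliffordCorr.exists_irr_constituent hK h1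
  set T : Subgroup G := Cfsg.Agent.Lib.Char.Monomial.inertiaOf N ϑ with hT
  have hNT : N ≤ T := by
    intro n hn
    rw [hT, Cfsg.Agent.Lib.Char.Monomial.mem_inertiaOf]
    intro m
    have hcl := Cfsg.Agent.Lib.Char.CompleteCor.isIrr_classFunction hϑ m ⟨n, hn⟩
    exact hcl
  obtain ⟨ψ, hψ, hind, -⟩ := Cfsg.Agent.Lib.Char.CliffordCorr.exists_indFun_eq N ϑ T hNT hϑ
    (Cfsg.Agent.Lib.Char.Monomial.mem_inertiaOf N ϑ) hχ hcon
  have htop : T = ⊤ := by
    by_contra hne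
    exact hprim ⟨T, hne, ψ, Cfsg.Agent.Lib.Char.Basic.isCharacter_of_isIrrCharacter hψ, hind⟩
  have hinv : ∀ (g : G) (n : N), ϑ ⟨g * n * g⁻¹, (inferInstance : N.Normal).conj_mem (n : G) n.2 g⟩ = ϑ n := by
    intro g n
    have hg : g ∈ T := by rw [htop]; trivial
    exact (Cfsg.Agent.Lib.Char.Monomial.mem_inertiaOf N ϑ g).1 hg n
  have hres := Cfsg.Agent.Lib.Char.GallagherAvg.res_eq_smul_of_invariant N hχ hϑ hcon hinv
  obtain ⟨e, he⟩ := Cfsg.Agent.Lib.Char.Ortho.exists_nat_classInner hK ⟨ϑ, hϑ⟩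
  refine ⟨ϑ, hϑ, e, fun n => ?_⟩
  have := congrFun hres n
  rw [show classInner (fun n : N => χ n) ϑ = (e : ℂ) from he] at this
  simpa using this

end Cfsg.Agent.Lib.S4993
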