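import Mathlib
import Cfsg.Prelude.Def_Characters
import Cfsg.Agent.Lib.Char.DegreeDvd
import Cfsg.Agent.Lib.Char.Ortho

/-! Piece P2 of S4993: a homogeneous restriction to a normal subgroup of prime index is irreducible. -/

set_option autoImplicit false

namespace Cfsg.Agent.Lib.S4993

open Cfsg
open scoped ComplexConjugate

universe u

private theorem sum_normSq_eq {G : Type u} [Group G] [Fintype G] {χ : G → ℂ}
    (h : IsIrrCharacter G χ) : ∑ g, Complex.normSq (χ g) = (Nat.card G : ℝ) := by
  have h1 := Cfsg.Agent.Lib.Char.Ortho.classInner_irr_self h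
  have hG : (Nat.card G : ℂ) ≠ 0 := by exact_mod_cast Nat.card_pos.ne'
  unfold classInner at h1
  have h2 : ∑ g, χ g * conj (χ g) = (Nat.card G : ℂ) := by
    field_simp at h1
    exact h1
  simp only [Complex.mul_conj] at h2
  exact_mod_cast h2

theorem irr_of_prime_index_homog {Γ : Type u} [Group Γ] [Fintype Γ] (A : Subgroup Γ) [A.Normal]
    [Fintype A] (hf : A.index.Prime) {χ : Γ → ℂ} (hχ : IsIrrCharacter Γ χ) {ψ : A → ℂ}
    (hψ : IsIrrCharacter A ψ) {e : ℕ} (he : ∀ a : A, χ a = e * ψ a) :
    IsIrrCharacter A (fun a : A => χ a) := by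
  classical
  have hψ1 : ψ 1 ≠ 0 := Cfsg.Agent.Lib.Char.Ortho.irr_apply_one_ne_zero hψ
  have hχ1 : χ 1 ≠ 0 := Cfsg.Agent.Lib.Char.Ortho.irr_apply_one_ne_zero hχ
  have h1e : χ 1 = e * ψ 1 := by simpa using he 1
  have he0 : e ≠ 0 := by
    rintro rfl
    apply hχ1
    rw [h1e]
    simp
  have hinner : classInner (fun a : A => χ a) ψ = e := by
    unfold classInner
    have h1 := Cfsg.Agent.Lib.Char.Ortho.classInner_irr_self hψ
    unfold classInner at h1
    simp only [he]
    simp only [mul_assoc]
    rw [← Finset.mul_sum, mul_left_comm, h1, mul_one]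
  obtain ⟨e', h2, h3⟩ := Cfsg.Agent.Lib.Char.DegreeDvd.exists_degree_ratio A hχ hψ
    (by rw [hinner]; exact_mod_cast he0)
  have hee' : e = e' := by
    have h4 : (e : ℂ) * ψ 1 = e' * ψ 1 := by rw [← h1e, h2]
    exact_mod_cast mul_right_cancel₀ hψ1 h4
  subst hee'
  -- the norm bound
  have hbound : e ^ 2 * Nat.card A ≤ Nat.card Γ := by
    have h5 : ∑ a : A, Complex.normSq (χ a) = (e : ℝ) ^ 2 * Nat.card A := by
      rw [← sum_normSq_eq hψ, Finset.mul_sum]
      refine Finset.sum_congr rfl fun a _ => ?_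
      rw [he, map_mul, Complex.normSq_natCast]
      ring
    have h6 : ∑ a : A, Complex.normSq (χ a) ≤ ∑ g, Complex.normSq (χ g) := by
      have h7 : ∑ a : A, Complex.normSq (χ a)
          = ∑ g ∈ Finset.univ.map (Function.Embedding.subtype (· ∈ A)), Complex.normSq (χ g) := by
        rw [Finset.sum_map]
        rfl
      rw [h7]
      exact Finset.sum_le_univ_sum_of_nonneg fun g => Complex.normSq_nonneg _
    rw [sum_normSq_eq hχ, h5] at h6
    exact_mod_cast h6
  have hcard : Nat.card A * A.index = Nat.card Γ := A.card_mul_index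
  have hpos : 0 < Nat.card A := Nat.card_pos
  have hle : e ^ 2 ≤ A.index := by
    rw [← hcard, mul_comm] at hbound
    exact Nat.le_of_mul_le_mul_left hbound hpos
  have he1 : e = 1 := by
    rcases (Nat.dvd_prime hf).1 h3 with h | h
    · exact h
    · exfalso
      have h8 := hf.two_le
      rw [h] at hle
      nlinarith
  subst he1
  have hfun : (fun a : A => χ a) = ψ := by
    funext a
    rw [he]
    simp
  rw [hfun]
  exact hψ

end Cfsg.Agent.Lib.S4993
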