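import Mathlib
import Cfsg.Prelude.Def_Characters
import Cfsg.Agent.Lib.Char.Basic
import Cfsg.Agent.Lib.S4993.Homog
import Cfsg.Agent.Lib.S4993.PrimeStep

set_option autoImplicit false

/-! `G/F` nilpotent and `χ` primitive irreducible: `χ|F` is irreducible. -/

namespace Cfsg.Agent.Lib.S4993

open Cfsg

universe u

variable {G : Type u} [Group G]

/-- A proper normal subgroup with nilpotent quotient lies with prime index in a larger normal
subgroup. -/
theorem exists_prime_relIndex [Finite G] (M : Subgroup G) [M.Normal] (hM : M ≠ ⊤)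
    (hnil : Group.IsNilpotent (G ⧸ M)) :
    ∃ M₁ : Subgroup G, M₁.Normal ∧ M ≤ M₁ ∧ (M.relIndex M₁).Prime := by
  classical
  have hnt : Nontrivial (G ⧸ M) := QuotientGroup.nontrivial_iff.2 hM
  have hc : Nontrivial (Subgroup.center (G ⧸ M)) := by
    by_contra hcn
    rw [not_nontrivial_iff_subsingleton] at hcn
    have hbot : Subgroup.center (G ⧸ M) = ⊥ := Subgroup.eq_bot_of_subsingleton _
    obtain ⟨n, hn⟩ := hnil.nilpotent
    have hall : ∀ i : ℕ, Subgroup.upperCentralSeries (G ⧸ M) i = ⊥ := by
      intro i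
      induction i with
      | zero => exact Subgroup.upperCentralSeries_zero _
      | succ i ih =>
        rw [eq_bot_iff]
        intro x hx
        rw [Subgroup.mem_upperCentralSeries_succ_iff] at hx
        have hxc : x ∈ Subgroup.center (G ⧸ M) := by
          rw [Subgroup.mem_center_iff]
          intro y
          have h1 := hx y
          rw [ih, Subgroup.mem_bot] at h1
          have h2 : x * y * x⁻¹ = y := by
            rw [mul_inv_eq_one.1 h1]
          rw [mul_inv_eq_iff_eq_mul.1 h2]
        rwa [hbot] at hxc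
    rw [hall n] at hn
    obtain ⟨a, ha⟩ := exists_ne (1 : G ⧸ M)
    have : a ∈ (⊥ : Subgroup (G ⧸ M)) := hn ▸ Subgroup.mem_top a
    exact ha (Subgroup.mem_bot.1 this)
  obtain ⟨z, hz⟩ := exists_ne (1 : Subgroup.center (G ⧸ M))
  obtain ⟨p, hp, hdvd⟩ := Nat.exists_prime_and_dvd (n := orderOf (z : G ⧸ M)) (by
    intro h1
    apply hz
    have : (z : G ⧸ M) = 1 := orderOf_eq_one_iff.1 h1
    exact Subtype.ext this)
  have hpos : 0 < orderOf (z : G ⧸ M) := orderOf_pos _
  obtain ⟨k, hk⟩ := hdvd
  set y : G ⧸ M := (z : G ⧸ M) ^ k with hy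
  have hord : orderOf y = p := by
    have := orderOf_pow_of_dvd (x := (z : G ⧸ M)) (n := k) (by
      intro h0
      rw [h0, mul_zero] at hk
      omega) ⟨p, by rw [hk]; ring⟩
    rw [hy, this, hk]
    have hk0 : 0 < k := by
      rcases Nat.eq_zero_or_pos k with h | h
      · rw [h, mul_zero] at hk; omega
      · exact h
    exact Nat.mul_div_cancel _ hk0
  have hyc : y ∈ Subgroup.center (G ⧸ M) := Subgroup.pow_mem _ z.2 _
  let Y : Subgroup (G ⧸ M) := Subgroup.zpowers y
  have hYn : Y.Normal := by
    refine ⟨fun n hn g => ?_⟩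
    obtain ⟨i, rfl⟩ := Subgroup.mem_zpowers_iff.1 hn
    have hi : y ^ i ∈ Subgroup.center (G ⧸ M) := Subgroup.zpow_mem _ hyc _
    have : g * y ^ i * g⁻¹ = y ^ i := by
      rw [Subgroup.mem_center_iff] at hi
      rw [hi g]; group
    rw [this]
    exact Subgroup.mem_zpowers_iff.2 ⟨i, rfl⟩
  let M₁ : Subgroup G := Y.comap (QuotientGroup.mk' M)
  have hM₁ : M₁.Normal := hYn.comap _
  have hle : M ≤ M₁ := by
    intro x hx
    have : (QuotientGroup.mk' M) x = 1 := (QuotientGroup.eq_one_iff x).2 hx
    change (QuotientGroup.mk' M) x ∈ Y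
    rw [this]
    exact one_mem _
  refine ⟨M₁, hM₁, hle, ?_⟩
  have hcard : M.relIndex M₁ = Nat.card Y := by
    have hker : (QuotientGroup.mk' M).ker = M := QuotientGroup.ker_mk' M
    have hmap : M₁.map (QuotientGroup.mk' M) = Y :=
      Subgroup.map_comap_eq_self_of_surjective (QuotientGroup.mk'_surjective M) Y
    rw [← hmap]
    have h2 := Subgroup.relIndex_ker (f := QuotientGroup.mk' M) M₁
    rw [hker] at h2
    rw [h2]
  rw [hcard, Nat.card_zpowers, hord]
  exact hp

theorem irr_res_of_nilpotent_quot [Fintype G] {χ : G → ℂ} (hχ : IsIrrCharacter G χ)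
    (hprim : IsPrim χ) (F : Subgroup G) [F.Normal] [Fintype F]
    (hnil : Group.IsNilpotent (G ⧸ F)) : IsIrrCharacter F (fun x : F => χ x) := by
  classical
  have key : ∀ (k : ℕ) (M : Subgroup G), M.Normal → F ≤ M → M.index = k →
      IsIrrCharacter M (fun x : M => χ x) := by
    intro k
    induction k using Nat.strong_induction_on with
    | _ k ih =>
      intro M hMn hFM hk
      by_cases hM : M = ⊤
      · subst hM
        exact Cfsg.Agent.Lib.Char.Basic.isIrrCharacter_comp_surjective hχ
          (⊤ : Subgroup G).subtype (fun g => ⟨⟨g, trivial⟩, rfl⟩)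
      · have hnilM : Group.IsNilpotent (G ⧸ M) :=
          Group.nilpotent_of_surjective (QuotientGroup.map F M (MonoidHom.id G) hFM) (by
            intro y
            obtain ⟨g, rfl⟩ := QuotientGroup.mk_surjective y
            exact ⟨(g : G ⧸ F), rfl⟩)
        obtain ⟨M₁, hM₁n, hle, hprime⟩ := exists_prime_relIndex M hM hnilM
        have hidx : M.relIndex M₁ * M₁.index = M.index := Subgroup.relIndex_mul_index hle
        have hpos : 0 < M₁.index := Nat.pos_of_ne_zero Subgroup.index_ne_zero_of_finite
        have hlt : M₁.index < k := by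
          rw [← hk, ← hidx]
          have := hprime.two_le
          nlinarith
        have hP := ih _ hlt M₁ hM₁n (hFM.trans hle) rfl
        obtain ⟨ψ, hψ, e, he⟩ := homog hχ hprim M
        let φ : (M.subgroupOf M₁) ≃* M := Subgroup.subgroupOfEquivOfLe hle
        have hψ' : IsIrrCharacter (M.subgroupOf M₁) (fun a => ψ (φ a)) :=
          Cfsg.Agent.Lib.Char.Basic.isIrrCharacter_comp_surjective hψ φ.toMonoidHom φ.surjective
        have he' : ∀ a : M.subgroupOf M₁, (fun x : M₁ => χ x) a = e * (fun a => ψ (φ a)) a := by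
          intro a
          exact he (φ a)
        have hres := irr_of_prime_index_homog (M.subgroupOf M₁) hprime hP hψ' he'
        have hback := Cfsg.Agent.Lib.Char.Basic.isIrrCharacter_comp_surjective hres
          φ.symm.toMonoidHom φ.symm.surjective
        convert hback using 2 with m
        change χ (m : G) = χ (((φ.symm m : M.subgroupOf M₁) : M₁) : G)
        congr 1
  exact key _ F inferInstance le_rfl rfl

end Cfsg.Agent.Lib.S4993
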