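import Mathlib
import Cfsg.Prelude.Def_Characters
import Cfsg.Agent.Lib.Char.DegreeDvd
import Cfsg.Agent.Lib.Char.CliffordCorr
import Cfsg.Agent.Lib.Char.GallagherAvg
import Cfsg.Agent.Lib.S4993.Defs

set_option autoImplicit false
set_option linter.unusedSectionVars false
set_option linter.unusedVariables false
set_option linter.style.haveILetI false

/-! The degree bound for a normal factor of a central product (S4993). -/

namespace Cfsg.Agent.Lib.S4993

open Cfsg Cfsg.Agent.Lib.Char.Basic Cfsg.Agent.Lib.Char.Ortho Cfsg.Agent.Lib.Char.Induced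
open scoped ComplexConjugate

universe u

variable {G : Type u} [Group G]

theorem part_sq_mul_card_le [Fintype G] {χ : G → ℂ} (F R S T : Subgroup G) [R.Normal] [S.Normal]
    (hRF : R ≤ F) (hSF : S ≤ F) (hF : F ≤ R ⊔ S) (hcomm : ∀ r ∈ R, ∀ s ∈ S, r * s = s * r)
    {p q : ℕ} [Fact p.Prime] [Fact q.Prime] (hpq : p ≠ q) (hR : IsPGroup p R) (hS : IsPGroup q S)
    [Fintype F] (hχ : IsIrrCharacter F (fun x : F => χ x)) {n : ℕ} (hn : χ 1 = n) (hTR : T ≤ R)
    (hT : ∀ t ∈ T, ‖χ t‖ = n) :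
    (p ^ n.factorization p) ^ 2 * Nat.card T ≤ Nat.card R := by
  classical
  have hp : p.Prime := Fact.out
  have hq : q.Prime := Fact.out
  let Γ := ↥F
  let N₁ : Subgroup F := R.subgroupOf F
  haveI hN₁ : N₁.Normal := Subgroup.Normal.subgroupOf ‹_› F
  letI : Fintype N₁ := Fintype.ofFinite _
  let χF : F → ℂ := fun x => χ x
  have hres : IsCharacter N₁ (fun a : N₁ => χF a) :=
    isCharacter_restrict (isCharacter_of_isIrrCharacter hχ) N₁
  by_cases hn0 : n = 0
  · -- degree zero is impossible; the inequality is then trivial anyway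
    subst hn0
    simp only [Nat.factorization_zero, Finsupp.coe_zero, Pi.zero_apply, pow_zero, one_pow, one_mul]
    exact Nat.card_mono (Set.toFinite _) hTR
  have h10 : (fun a : N₁ => χF a) 1 ≠ 0 := by
    show χ 1 ≠ 0
    rw [hn]
    exact_mod_cast hn0
  obtain ⟨ϑ, hϑ, hcon⟩ := Cfsg.Agent.Lib.Char.CliffordCorr.exists_irr_constituent hres h10
  have hϑcl := isClassFunction_of_isCharacter (isCharacter_of_isIrrCharacter hϑ)
  -- invariance of ϑ
  have hinv : ∀ (g : F) (a : N₁), ϑ ⟨g * a * g⁻¹, hN₁.conj_mem (a : F) a.2 g⟩ = ϑ a := by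
    intro g a
    have hg : (g : G) ∈ ((R ⊔ S : Subgroup G) : Set G) := hF g.2
    rw [Subgroup.mul_normal, Set.mem_mul] at hg
    obtain ⟨r, hr, s, hs, hrs⟩ := hg
    have hrF : r ∈ F := hRF hr
    have hrN : (⟨r, hrF⟩ : F) ∈ N₁ := by
      rw [Subgroup.mem_subgroupOf]
      exact hr
    have h1 := hϑcl a ⟨⟨r, hrF⟩, hrN⟩
    rw [← h1]
    congr 1
    apply Subtype.ext
    apply Subtype.ext
    have haR : ((a : F) : G) ∈ R := a.2
    show (g : G) * ((a : F) : G) * (g : G)⁻¹ = r * ((a : F) : G) * r⁻¹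
    rw [← hrs]
    have hcs : ((a : F) : G) * s = s * ((a : F) : G) := hcomm _ haR s hs
    have : r * s * ((a : F) : G) * (r * s)⁻¹ = r * (s * ((a : F) : G)) * s⁻¹ * r⁻¹ := by group
    rw [this, ← hcs]
    group
  have hsm := Cfsg.Agent.Lib.Char.GallagherAvg.res_eq_smul_of_invariant N₁ hχ hϑ hcon hinv
  obtain ⟨c, hc⟩ := exists_nat_classInner_of_isCharacter hres (isCharacter_of_isIrrCharacter hϑ)
  rw [hc] at hsm
  have hc0 : c ≠ 0 := by
    intro h0
    apply hcon
    rw [hc, h0]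
    simp
  obtain ⟨e, he1, he2⟩ := Cfsg.Agent.Lib.Char.DegreeDvd.exists_degree_ratio N₁ hχ hϑ hcon
  obtain ⟨d, hd⟩ := exists_degree_of_isCharacter (isCharacter_of_isIrrCharacter hϑ)
  have hd' : ϑ 1 = (d : ℂ) := hd
  have h1eq : χ 1 = (c : ℂ) * ϑ 1 := by
    have := congrFun hsm 1
    simpa using this
  have hncd : n = c * d := by
    have : (n : ℂ) = (c : ℂ) * (d : ℂ) := by rw [← hn, h1eq, hd']
    exact_mod_cast this
  have hd0 : d ≠ 0 := by
    rintro rfl
    exact hn0 (by rw [hncd, mul_zero])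
  have hce : e = c := by
    have h2 : (χ 1 : ℂ) = e * ϑ 1 := he1
    have h3 : (n : ℂ) = (e : ℂ) * (d : ℂ) := by rw [← hn, h2, hd']
    have h4 : n = e * d := by exact_mod_cast h3
    rw [hncd] at h4
    exact (Nat.eq_of_mul_eq_mul_right (Nat.pos_of_ne_zero hd0) h4).symm
  -- c divides a power of q
  have hidx : N₁.index ∣ Nat.card S := by
    -- S surjects onto F/N₁
    let f : S →* F ⧸ N₁ := (QuotientGroup.mk' N₁).comp (Subgroup.inclusion hSF)
    have hsurj : Function.Surjective f := by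
      intro x
      obtain ⟨g, rfl⟩ := QuotientGroup.mk'_surjective N₁ x
      have hg : (g : G) ∈ ((R ⊔ S : Subgroup G) : Set G) := hF g.2
      rw [Subgroup.mul_normal, Set.mem_mul] at hg
      obtain ⟨r, hr, s, hs, hrs⟩ := hg
      refine ⟨⟨s, hs⟩, ?_⟩
      show (QuotientGroup.mk' N₁) ⟨s, hSF hs⟩ = (QuotientGroup.mk' N₁) g
      rw [QuotientGroup.mk'_eq_mk']
      refine ⟨⟨r, hRF hr⟩, hr, ?_⟩
      apply Subtype.ext
      show s * r = (g : G)
      rw [← hrs, hcomm r hr s hs]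
    have h1 : Nat.card (F ⧸ N₁) ∣ Nat.card S := Subgroup.card_dvd_of_surjective f hsurj
    rwa [← Subgroup.index_eq_card] at h1
  obtain ⟨k, hk⟩ := IsPGroup.iff_card.1 hS
  have hcq : c ∣ q ^ k := by
    rw [← hk, ← hce]
    exact he2.trans hidx
  have hcp : ¬ p ∣ c := by
    intro h
    exact hpq ((Nat.prime_dvd_prime_iff_eq hp hq).1 (hp.dvd_of_dvd_pow (h.trans hcq)))
  have hfac : n.factorization p = d.factorization p := by
    rw [hncd, Nat.factorization_mul hc0 hd0, Finsupp.add_apply,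
      Nat.factorization_eq_zero_of_not_dvd hcp, zero_add]
  have hpart : p ^ n.factorization p ≤ d := by
    rw [hfac]
    exact Nat.le_of_dvd (Nat.pos_of_ne_zero hd0) (Nat.ordProj_dvd d p)
  -- inner product computation
  have hinner : classInner (fun a : N₁ => χF a) (fun a : N₁ => χF a) = (c : ℂ) * c := by
    rw [hsm]
    have h2 := classInner_irr_self hϑ
    simp only [classInner, Pi.smul_apply, smul_eq_mul, map_mul, map_natCast] at h2 ⊢
    calc _ = (c : ℂ) * c * ((Nat.card N₁ : ℂ)⁻¹ * ∑ g : N₁, ϑ g * conj (ϑ g)) := by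
          rw [Finset.mul_sum, Finset.mul_sum, Finset.mul_sum]
          refine Finset.sum_congr rfl (fun g _ => ?_)
          ring
      _ = _ := by rw [h2, mul_one]
  have hsum : ∑ a : N₁, ‖χF a‖ ^ 2 = (Nat.card N₁ : ℝ) * (c * c : ℕ) := by
    have h2 : (Nat.card N₁ : ℂ)⁻¹ * ∑ g : N₁, χF g * conj (χF g) = (c : ℂ) * c := hinner
    have hcard0 : (Nat.card N₁ : ℂ) ≠ 0 := by exact_mod_cast Nat.card_pos.ne'
    have h3 : ∑ g : N₁, χF g * conj (χF g) = (Nat.card N₁ : ℂ) * ((c : ℂ) * c) := by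
      rw [← h2, mul_inv_cancel_left₀ hcard0]
    have h4 : ∑ g : N₁, χF g * conj (χF g) = ((∑ a : N₁, ‖χF a‖ ^ 2 : ℝ) : ℂ) := by
      push_cast
      refine Finset.sum_congr rfl (fun g _ => ?_)
      rw [Complex.mul_conj, Complex.normSq_eq_norm_sq]
      push_cast
      rfl
    rw [h4] at h3
    have h5 : ((∑ a : N₁, ‖χF a‖ ^ 2 : ℝ) : ℂ) = (((Nat.card N₁ : ℝ) * (c * c : ℕ) : ℝ) : ℂ) := by
      rw [h3]
      push_cast
      ring
    exact_mod_cast h5
  -- the lower bound over T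
  let ι : T → N₁ := fun t => ⟨⟨t, hRF (hTR t.2)⟩, hTR t.2⟩
  have hι : Function.Injective ι := by
    intro a b hab
    have := congrArg (fun x : N₁ => ((x : F) : G)) hab
    exact Subtype.ext this
  letI : Fintype T := Fintype.ofFinite _
  have hlow : (Nat.card T : ℝ) * (n : ℝ) ^ 2 ≤ ∑ a : N₁, ‖χF a‖ ^ 2 := by
    have h2 : ∑ t : T, ‖χF (ι t)‖ ^ 2 ≤ ∑ a : N₁, ‖χF a‖ ^ 2 := by
      rw [← Finset.sum_image (f := fun a : N₁ => ‖χF a‖ ^ 2) (s := Finset.univ) (g := ι)
        (fun a _ b _ h => hι h)]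
      exact Finset.sum_le_sum_of_subset_of_nonneg (Finset.subset_univ _)
        (fun _ _ _ => by positivity)
    have h3 : ∑ t : T, ‖χF (ι t)‖ ^ 2 = (Nat.card T : ℝ) * (n : ℝ) ^ 2 := by
      have : ∀ t : T, ‖χF (ι t)‖ ^ 2 = (n : ℝ) ^ 2 := fun t => by
        show ‖χ (t : G)‖ ^ 2 = _
        rw [hT t t.2]
      rw [Finset.sum_congr rfl (fun t _ => this t), Finset.sum_const, Finset.card_univ,
        nsmul_eq_mul, Nat.card_eq_fintype_card]
    rw [← h3]
    exact h2
  have hcardN : Nat.card N₁ = Nat.card R :=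
    Nat.card_congr (Subgroup.subgroupOfEquivOfLe hRF).toEquiv
  rw [hsum, hcardN, hncd] at hlow
  have hlow' : Nat.card T * (c * d) ^ 2 ≤ Nat.card R * (c * c) := by exact_mod_cast hlow
  have hcpos : 0 < c * c := Nat.mul_pos (Nat.pos_of_ne_zero hc0) (Nat.pos_of_ne_zero hc0)
  have hlow2 : Nat.card T * d ^ 2 ≤ Nat.card R := by
    refine Nat.le_of_mul_le_mul_right ?_ hcpos
    calc Nat.card T * d ^ 2 * (c * c) = Nat.card T * (c * d) ^ 2 := by ring
      _ ≤ _ := hlow'
  calc (p ^ n.factorization p) ^ 2 * Nat.card T ≤ d ^ 2 * Nat.card T :=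
        Nat.mul_le_mul_right _ (Nat.pow_le_pow_left hpart 2)
    _ = Nat.card T * d ^ 2 := by ring
    _ ≤ _ := hlow2

end Cfsg.Agent.Lib.S4993
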