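import Mathlib
import Cfsg.Prelude.Def_Characters
import Cfsg.Agent.Lib.S4993.Defs

set_option autoImplicit false
set_option linter.unusedSectionVars false
set_option linter.unusedVariables false
set_option linter.style.haveILetI false

/-! Scalar subgroup facts for S4993. -/

namespace Cfsg.Agent.Lib.S4993

open Cfsg

universe u

variable {G : Type u} [Group G]

/-- The scalar subgroup is normal. -/
theorem scal_normal {n : ℕ} (ρ : Representation ℂ G (Fin n → ℂ)) : (scal ρ).Normal := by
  constructor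
  rintro t ⟨c, hc⟩ g
  refine ⟨c, fun v => ?_⟩
  rw [map_mul, map_mul, Module.End.mul_apply, Module.End.mul_apply, hc, map_smul,
    ← Module.End.mul_apply, ← map_mul]
  simp

theorem ker_le_scal {n : ℕ} (ρ : Representation ℂ G (Fin n → ℂ)) :
    MonoidHom.ker ρ ≤ scal ρ := by
  intro g hg
  rw [MonoidHom.mem_ker] at hg
  refine ⟨1, fun v => ?_⟩
  rw [hg]
  simp

theorem comm_mem_ker {n : ℕ} (ρ : Representation ℂ G (Fin n → ℂ)) {t : G} (ht : t ∈ scal ρ)
    (g : G) : t * g * t⁻¹ * g⁻¹ ∈ MonoidHom.ker ρ := by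
  rw [MonoidHom.mem_ker]
  obtain ⟨d, hd⟩ := (scal ρ).inv_mem ht
  obtain ⟨c, hc⟩ := ht
  refine LinearMap.ext fun v => ?_
  have h1 : ρ (t * g * t⁻¹ * g⁻¹) v = ρ t (ρ g (ρ t⁻¹ (ρ g⁻¹ v))) := by
    simp only [map_mul, Module.End.mul_apply]
  rw [h1, hd, map_smul, map_smul, ← Module.End.mul_apply (ρ g), ← map_mul]
  simp only [mul_inv_cancel, map_one, Module.End.one_apply]
  rw [← hd, ← Module.End.mul_apply, ← map_mul]
  simp

theorem norm_character_of_mem_scal [Finite G] {n : ℕ} (ρ : Representation ℂ G (Fin n → ℂ))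
    {t : G} (ht : t ∈ scal ρ) : ‖ρ.character t‖ = n := by
  classical
  obtain ⟨c, hc⟩ := ht
  have h1 : ρ t = c • (LinearMap.id : (Fin n → ℂ) →ₗ[ℂ] (Fin n → ℂ)) :=
    LinearMap.ext fun v => by simpa using hc v
  have h2 : ρ.character t = c * n := by
    rw [Representation.character, h1, map_smul, LinearMap.trace_id]
    simp
  rw [h2, norm_mul]
  rcases Nat.eq_zero_or_pos n with h0 | hn
  · subst h0
    simp
  · -- the scalar has norm one
    have hk : ∀ k : ℕ, ∀ v, ρ (t ^ k) v = c ^ k • v := by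
      intro k
      induction k with
      | zero => intro v; simp
      | succ k ih =>
        intro v
        rw [pow_succ, map_mul, Module.End.mul_apply, hc, map_smul, ih, smul_smul, pow_succ,
          mul_comm]
    have hord : 0 < orderOf t := orderOf_pos t
    let e : Fin n → ℂ := fun _ => 1
    have he : e ⟨0, hn⟩ = 1 := rfl
    have h3 := hk (orderOf t) e
    rw [pow_orderOf_eq_one, map_one, Module.End.one_apply] at h3
    have h4 : c ^ orderOf t = 1 := by
      have h5 := congrFun h3 ⟨0, hn⟩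
      simp only [Pi.smul_apply, smul_eq_mul] at h5
      rw [he] at h5
      simpa using h5.symm
    have h6 : ‖c‖ = 1 := Complex.norm_eq_one_of_pow_eq_one h4 hord.ne'
    rw [h6, one_mul]
    simp

/-- the scalar as a character: kernel exactly ker ρ. -/
theorem exists_lam [Finite G] {n : ℕ} (ρ : Representation ℂ G (Fin n → ℂ)) (hn : 0 < n) :
    ∃ lam : scal ρ →* ℂˣ, ∀ t : scal ρ, lam t = 1 ↔ (t : G) ∈ MonoidHom.ker ρ := by
  classical
  let i : Fin n := ⟨0, hn⟩
  let e : Fin n → ℂ := fun _ => 1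
  let f0 : scal ρ → ℂ := fun t => ρ (t : G) e i
  have hf0 : ∀ (t : scal ρ) (v : Fin n → ℂ), ρ (t : G) v = f0 t • v := by
    intro t v
    obtain ⟨c, hc⟩ := t.2
    have h1 : f0 t = c := by
      show ρ (t : G) e i = c
      rw [hc]
      simp [e]
    rw [h1, hc]
  let f : scal ρ →* ℂ :=
    { toFun := f0
      map_one' := by
        show ρ ((1 : scal ρ) : G) e i = 1
        simp [e]
      map_mul' := by
        intro a b
        show ρ ((a * b : scal ρ) : G) e i = f0 a * f0 b
        rw [Subgroup.coe_mul, map_mul, Module.End.mul_apply, hf0 b, map_smul, hf0 a]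
        simp [e, mul_comm] }
  refine ⟨f.toHomUnits, fun t => ?_⟩
  rw [MonoidHom.mem_ker, Units.ext_iff]
  show f0 t = 1 ↔ _
  constructor
  · intro h
    refine LinearMap.ext fun v => ?_
    rw [hf0, h]
    simp
  · intro h
    show ρ (t : G) e i = 1
    rw [h]
    simp [e]

end Cfsg.Agent.Lib.S4993
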