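import Mathlib
import Cfsg.Prelude.Def_Characters
import Cfsg.Agent.Lib.Char.Values
import Cfsg.Agent.Lib.Char.AbelianQuot
import Cfsg.Agent.Lib.S4993.Defs

set_option autoImplicit false
set_option linter.unusedSectionVars false
set_option linter.unusedVariables false
set_option linter.style.haveILetI false

/-! Core of P5b for S4993: a homogeneous restriction to a normal subgroup with abelian image
consists of scalars. -/

namespace Cfsg.Agent.Lib.S4993

open Cfsg

universe u

variable {G : Type u} [Group G]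

theorem hab_scal_of_homog [Fintype G] {n : ℕ} (ρ : Representation ℂ G (Fin n → ℂ))
    (hρ : ρ.IsIrreducible) (U : Subgroup G)
    (hc : ∀ x ∈ U, ∀ y ∈ U, x * y * x⁻¹ * y⁻¹ ∈ MonoidHom.ker ρ)
    (hh : ∃ ψ : U → ℂ, IsIrrCharacter U ψ ∧ ∃ e : ℕ, ∀ x : U, ρ.character x = e * ψ x) :
    U ≤ scal ρ := by
  classical
  obtain ⟨ψ, ⟨m, σ, hσ, rfl⟩, e, he⟩ := hh
  haveI : Finite U := inferInstance
  -- dimensions
  have hfn : Module.finrank ℂ (Fin n → ℂ) = n := by simp
  have hfm : Module.finrank ℂ (Fin m → ℂ) = m := by simp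
  have hχ1 : ρ.character 1 = (n : ℂ) := by
    simp [Representation.character, map_one, LinearMap.trace_one]
  have hσ1 : σ.character 1 = (m : ℂ) := by
    simp [Representation.character, map_one, LinearMap.trace_one]
  have hnt : Nontrivial (Fin n → ℂ) := by
    by_contra hcon
    rw [not_nontrivial_iff_subsingleton] at hcon
    have h0 : (⊥ : Subrepresentation ρ) = ⊤ := by
      apply Subrepresentation.toSubmodule_injective
      exact Subsingleton.elim _ _
    exact bot_ne_top h0
  have hn0 : n ≠ 0 := by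
    rintro rfl
    exact not_subsingleton (Fin 0 → ℂ) inferInstance
  have h1 := he 1
  rw [Subgroup.coe_one, hχ1, hσ1] at h1
  have he0 : (e : ℂ) ≠ 0 := by
    intro h0
    rw [h0, zero_mul] at h1
    exact hn0 (by exact_mod_cast h1)
  -- commuting image
  have hcomm : ∀ x y : U, σ x ∘ₗ σ y = σ y ∘ₗ σ x := by
    intro x y
    have hk := hc x x.2 y y.2
    have hk' : ρ ((x : G) * y * (x : G)⁻¹ * (y : G)⁻¹) = 1 := hk
    have hcv : σ.character (x * y * x⁻¹ * y⁻¹) = (m : ℂ) := by
      have h2 := he (x * y * x⁻¹ * y⁻¹)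
      have h3 : ρ.character (((x * y * x⁻¹ * y⁻¹ : U) : G)) = (n : ℂ) := by
        have : ((x * y * x⁻¹ * y⁻¹ : U) : G) = (x : G) * y * (x : G)⁻¹ * (y : G)⁻¹ := by simp
        rw [this, Representation.character, hk']
        simp [LinearMap.trace_one]
      rw [h3, h1] at h2
      exact_mod_cast (mul_left_cancel₀ he0 h2).symm
    have hid : σ (x * y * x⁻¹ * y⁻¹) = LinearMap.id := by
      have := (Cfsg.Agent.Lib.Char.Values.character_eq_finrank_iff σ (x * y * x⁻¹ * y⁻¹)).1
        (by rw [hfm]; exact hcv)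
      exact this
    have hmul : σ (x * y) = σ (y * x) := by
      have h4 : x * y = (x * y * x⁻¹ * y⁻¹) * (y * x) := by group
      conv_lhs => rw [h4]
      rw [map_mul (σ), hid]
      rfl
    have h5 : σ x ∘ₗ σ y = σ (x * y) := by rw [map_mul]; rfl
    have h6 : σ y ∘ₗ σ x = σ (y * x) := by rw [map_mul]; rfl
    rw [h5, h6, hmul]
  haveI := hσ
  have hm1 : m = 1 := by
    have := Cfsg.Agent.Lib.Char.AbelianQuot.finrank_eq_one_of_commuting σ hcomm
    rwa [hfm] at this
  subst hm1
  have hen : (e : ℂ) = n := by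
    rw [h1]; simp
  -- norm of ψ is one
  intro x hx
  have hnormσ : ‖σ.character ⟨x, hx⟩‖ = 1 := by
    have hiff := Cfsg.Agent.Lib.Char.Values.norm_character_eq_iff σ (⟨x, hx⟩ : U)
    rw [hfm] at hiff
    have hsc : ∃ ω : ℂ, σ (⟨x, hx⟩ : U) = ω • (LinearMap.id : (Fin 1 → ℂ) →ₗ[ℂ] (Fin 1 → ℂ)) := by
      refine ⟨σ (⟨x, hx⟩ : U) (fun _ => 1) 0, ?_⟩
      apply LinearMap.ext
      intro w
      have hw : w = w 0 • (fun _ => (1 : ℂ)) := by
        funext i
        have : i = 0 := Subsingleton.elim _ _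
        simp [this]
      conv_lhs => rw [hw, map_smul]
      funext i
      have : i = 0 := Subsingleton.elim _ _
      simp [this, mul_comm]
    have := hiff.2 hsc
    simpa using this
  have hnormχ : ‖ρ.character x‖ = (n : ℝ) := by
    have h7 := he ⟨x, hx⟩
    simp only at h7
    rw [h7, norm_mul, hnormσ, mul_one, Complex.norm_natCast]
    exact_mod_cast hen
  have hiff := Cfsg.Agent.Lib.Char.Values.norm_character_eq_iff ρ x
  rw [hfn] at hiff
  obtain ⟨ω, hω⟩ := hiff.1 hnormχ
  exact ⟨ω, fun v => by rw [hω]; simp⟩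

end Cfsg.Agent.Lib.S4993
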