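import Cfsg.Agent.Lib.S4993.Homog
import Cfsg.Agent.Lib.S4993.ScalHabCore

set_option autoImplicit false
set_option linter.unusedSectionVars false
set_option linter.unusedVariables false
set_option linter.style.haveILetI false

/-! P5b for S4993. -/

namespace Cfsg.Agent.Lib.S4993

open Cfsg

universe u

variable {G : Type u} [Group G]

/-- X = P5b: `U` normal with commutators in `ker ρ` lies in `scal ρ`. -/
theorem hab_scal [Fintype G] {n : ℕ} (ρ : Representation ℂ G (Fin n → ℂ)) (hρ : ρ.IsIrreducible)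
    (hprim : IsPrim ρ.character) (U : Subgroup G) (hU : U.Normal)
    (hc : ∀ x ∈ U, ∀ y ∈ U, x * y * x⁻¹ * y⁻¹ ∈ MonoidHom.ker ρ) : U ≤ scal ρ := by
  classical
  haveI := hU
  haveI : Fintype U := Fintype.ofFinite _
  exact hab_scal_of_homog ρ hρ U hc (homog ⟨n, ρ, hρ, rfl⟩ hprim U)

end Cfsg.Agent.Lib.S4993
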