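import Mathlib

set_option autoImplicit false
set_option linter.unusedSectionVars false
set_option linter.unusedVariables false
set_option linter.style.haveILetI false

/-! S4993 P8: a `q`-group acting on a finite abelian `q'`-group without nontrivial common fixed
points has an element `b` with `|C_V(b)|^q ≤ |V|`. -/

namespace Cfsg.Agent.Lib.S4993

namespace SmallFixAux

variable {B V : Type*} [Group B] [CommGroup V] [MulDistribMulAction B V]

/-- The subgroup of `b`-fixed vectors. -/
def fixS (b : B) : Subgroup V :=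
  (MulDistribMulAction.toMonoidHom V b).eqLocus (MonoidHom.id V)

lemma mem_fixS {b : B} {v : V} : v ∈ (fixS b : Subgroup V) ↔ b • v = v := Iff.rfl

/-- The commutator map `v ↦ [v, z]`. -/
def phi (z : B) : V →* V := MulDistribMulAction.toMonoidHom V z / MonoidHom.id V

lemma phi_apply (z : B) (v : V) : phi z v = z • v * v⁻¹ := by
  simp [phi, div_eq_mul_inv]

lemma phi_eq_one {z : B} {v : V} : phi z v = 1 ↔ z • v = v := by
  rw [phi_apply, mul_inv_eq_one]

omit [Group B] [MulDistribMulAction B V] in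
lemma card_eq (f : V →* V) (A : Subgroup V) :
    Nat.card A = Nat.card (A ⊓ f.ker : Subgroup V) * Nat.card (A.map f) := by
  set g : A →* V := f.comp A.subtype with hg
  have h1 := Subgroup.card_mul_index g.ker
  rw [Subgroup.index_ker] at h1
  have h2 : g.range = A.map f := by
    ext x
    simp [hg, MonoidHom.mem_range, Subgroup.mem_map]
  have h3 : Nat.card g.ker = Nat.card (A ⊓ f.ker : Subgroup V) := by
    refine Nat.card_congr
      { toFun := fun x => ⟨x.1.1, x.1.2, ?_⟩
        invFun := fun x => ⟨⟨x.1, x.2.1⟩, ?_⟩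
        left_inv := ?_
        right_inv := ?_ }
    · exact x.2
    · exact x.2.2
    · intro x; rfl
    · intro x; rfl
  rw [← h1, h2, h3]

lemma fix_phi_trivial [Finite V] {q : ℕ} (hcop : (Nat.card V).Coprime q) (A : Subgroup V) (z : B)
    (hq : ∀ v ∈ A, z ^ q • v = v) {w : V} (hw : w ∈ A.map (phi z : V →* V))
    (hfix : z • w = w) : w = 1 := by
  obtain ⟨v, hv, rfl⟩ := Subgroup.mem_map.1 hw
  set w := phi z v with hwdef
  have hzv : z • v = w * v := by rw [hwdef, phi_apply]; group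
  have hpow : ∀ n : ℕ, z ^ n • v = w ^ n * v := by
    intro n
    induction n with
    | zero => simp
    | succ n ih =>
      have hzn : ∀ m : ℕ, z ^ m • w = w := by
        intro m
        induction m with
        | zero => simp
        | succ m ihm => rw [pow_succ, mul_smul, hfix, ihm]
      rw [pow_succ, mul_smul, hzv, smul_mul', hzn, ih, pow_succ, mul_comm (w ^ n) w, mul_assoc]
  have h1 : w ^ q = 1 := by
    have := hpow q
    rw [hq v hv] at this
    exact (mul_eq_right.1 this.symm)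
  have h2 : w ^ Nat.card V = 1 := pow_card_eq_one'
  have h3 := pow_gcd_eq_one.2 ⟨h2, h1⟩
  rw [hcop.gcd_eq_one, pow_one] at h3
  exact h3

lemma fix_of_pow_fix {q : ℕ} [hq' : Fact q.Prime] (A : Subgroup V) (z : B)
    (hinv : ∀ v ∈ A, z • v ∈ A) (hq : ∀ v ∈ A, z ^ q • v = v) {t : ℕ} (ht : ¬ q ∣ t) {w : V}
    (hwA : w ∈ A) (hfix : z ^ t • w = w) : z • w = w := by
  have hcop : Nat.Coprime t q := ((Nat.Prime.coprime_iff_not_dvd hq'.out).2 ht).symm
  obtain ⟨u, -, hu⟩ := Nat.exists_mul_mod_eq_one_of_coprime hcop hq'.out.one_lt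
  have h1 : ∀ n : ℕ, (z ^ t) ^ n • w = w := by
    intro n
    induction n with
    | zero => simp
    | succ n ih => rw [pow_succ, mul_smul, hfix, ih]
  have h2 := h1 u
  rw [← pow_mul] at h2
  have h3 : t * u = q * (t * u / q) + 1 := by
    have := Nat.div_add_mod (t * u) q
    rw [hu] at this
    exact this.symm
  rw [h3, pow_succ, mul_smul, pow_mul] at h2
  have hzw : z • w ∈ A := hinv w hwA
  have h4 : ∀ n : ℕ, ∀ x ∈ A, (z ^ q) ^ n • x = x := by
    intro n
    induction n with
    | zero => simp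
    | succ n ih =>
      intro x hx
      rw [pow_succ, mul_smul, hq x hx, ih x hx]
  rw [h4 _ _ hzw] at h2
  exact h2

lemma indep {q : ℕ} [hq' : Fact q.Prime] [Finite V] (hcop : (Nat.card V).Coprime q)
    (A : Subgroup V) (z b₀ : B)
    (hinvz : ∀ v ∈ A, z • v ∈ A) (hinvb : ∀ v ∈ A, b₀ • v ∈ A)
    (hq : ∀ v ∈ A, z ^ q • v = v) (hcomm : ∀ b : B, ∀ v ∈ A, b • z • v = z • b • v) :
    ∀ (s : Finset (Fin q)) (d : Fin q → V),
      (∀ i ∈ s, d i ∈ A.map (phi z : V →* V) ∧ (b₀ * z ^ (i : ℕ)) • d i = d i) →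
      ∏ i ∈ s, d i = 1 → ∀ i ∈ s, d i = 1 := by
  classical
  have hDA : A.map (phi z : V →* V) ≤ A := by
    rintro _ ⟨v, hv, rfl⟩
    have hv' : v ∈ A := hv
    change phi z v ∈ A
    rw [phi_apply]
    exact A.mul_mem (hinvz v hv') (A.inv_mem hv')
  have hpowinv : ∀ n : ℕ, ∀ v ∈ A, z ^ n • v ∈ A := by
    intro n
    induction n with
    | zero => intro v hv; simpa using hv
    | succ n ih =>
      intro v hv
      rw [pow_succ, mul_smul]
      exact ih _ (hinvz v hv)
  have hcommn : ∀ (b : B) (n : ℕ), ∀ v ∈ A, b • z ^ n • v = z ^ n • b • v → True := fun _ _ _ _ _ => trivial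
  -- commuting of powers of z with all `b` requires `b`-invariance, so state it for b₀ z^i.
  have hcomm_pow : ∀ (b : B), (∀ v ∈ A, b • v ∈ A) → ∀ n : ℕ, ∀ v ∈ A, b • z ^ n • v = z ^ n • b • v := by
    intro b hb n
    induction n with
    | zero => intro v hv; simp
    | succ n ih =>
      intro v hv
      rw [pow_succ, mul_smul, mul_smul, ih _ (hinvz v hv), hcomm b v hv]
  have hb_i : ∀ n : ℕ, ∀ v ∈ A, (b₀ * z ^ n) • v ∈ A := by
    intro n v hv
    rw [mul_smul]
    exact hinvb _ (hpowinv n v hv)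
  intro s
  induction s using Finset.induction_on with
  | empty => intro d _ _ i hi; simp at hi
  | insert i₀ s hi₀ ih =>
    intro d hd hprod
    rw [Finset.prod_insert hi₀] at hprod
    -- the exponent
    let t : Fin q → ℕ := fun i => (i₀ : ℕ) + q - (i : ℕ)
    have hti : ∀ i : Fin q, (i : ℕ) + t i = (i₀ : ℕ) + q := by
      intro i
      have := i.2
      simp only [t]
      omega
    have htq : ∀ i ∈ s, ¬ q ∣ t i := by
      intro i his hdvd
      have hne : (i : ℕ) ≠ i₀ := by
        intro h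
        apply hi₀
        have : i = i₀ := Fin.ext h
        rwa [← this]
      have h1 := i.2
      have h2 := i₀.2
      obtain ⟨k, hk⟩ := hdvd
      have ht1 : 0 < t i := by simp only [t]; omega
      have ht2 : t i < 2 * q := by simp only [t]; omega
      have hk1 : k = 1 := by
        have hq0 : 0 < q := hq'.out.pos
        have : k < 2 := by
          by_contra hc
          push_neg at hc
          have : q * 2 ≤ q * k := Nat.mul_le_mul_left q hc
          omega
        have : k ≠ 0 := by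
          rintro rfl
          omega
        omega
      subst hk1
      simp only [t] at hk
      omega
    -- the action of T = b₀ z^i₀
    set T : B := b₀ * z ^ (i₀ : ℕ) with hT
    have hTd : ∀ i ∈ s, T • d i = z ^ t i • d i := by
      intro i his
      have h := hd i (Finset.mem_insert_of_mem his)
      have hdA : d i ∈ A := hDA h.1
      -- z^(i₀) acts as z^(i₀+q) on A
      have hz : z ^ (i₀ : ℕ) • d i = z ^ ((i₀ : ℕ) + q) • d i := by
        rw [pow_add, mul_smul, hq _ hdA]
      calc T • d i = b₀ • (z ^ (i₀ : ℕ) • d i) := mul_smul _ _ _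
        _ = b₀ • (z ^ ((i₀ : ℕ) + q) • d i) := by rw [hz]
        _ = b₀ • (z ^ ((i : ℕ) + t i) • d i) := by rw [hti i]
        _ = (b₀ * z ^ (i : ℕ)) • (z ^ t i • d i) := by rw [pow_add, mul_smul, mul_smul]
        _ = z ^ t i • ((b₀ * z ^ (i : ℕ)) • d i) := hcomm_pow _ (hb_i _) _ _ hdA
        _ = z ^ t i • d i := by rw [h.2]
    have hd0 : T • d i₀ = d i₀ := (hd i₀ (Finset.mem_insert_self _ _)).2
    have hprod2 : d i₀ * ∏ i ∈ s, (z ^ t i • d i) = 1 := by
      have h1 : T • (d i₀ * ∏ i ∈ s, d i) = 1 := by rw [hprod, smul_one]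
      rw [smul_mul', hd0] at h1
      have h2 : T • ∏ i ∈ s, d i = ∏ i ∈ s, T • d i :=
        map_prod (MulDistribMulAction.toMonoidHom V T) d s
      rw [h2, Finset.prod_congr rfl hTd] at h1
      exact h1
    have hprod3 : ∏ i ∈ s, (z ^ t i • d i * (d i)⁻¹) = 1 := by
      rw [Finset.prod_mul_distrib, Finset.prod_inv_distrib]
      have h1 : ∏ i ∈ s, (z ^ t i • d i) = ∏ i ∈ s, d i := by
        have := hprod2.trans hprod.symm
        exact mul_left_cancel this
      rw [h1, mul_inv_cancel]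
    have hDinv : ∀ n : ℕ, ∀ x ∈ A.map (phi z : V →* V), z ^ n • x ∈ A.map (phi z : V →* V) := by
      rintro n _ ⟨v, hv, rfl⟩
      refine ⟨z ^ n • v, hpowinv n v hv, ?_⟩
      change phi z (z ^ n • v) = z ^ n • phi z v
      rw [phi_apply, phi_apply, smul_mul', smul_inv', ← mul_smul, ← mul_smul, ← pow_succ, pow_succ']
    have hih := ih (fun i => z ^ t i • d i * (d i)⁻¹) (by
      intro i his
      have h := hd i (Finset.mem_insert_of_mem his)
      have hdA : d i ∈ A := hDA h.1
      refine ⟨(A.map (phi z : V →* V)).mul_mem (hDinv _ _ h.1) ((A.map (phi z : V →* V)).inv_mem h.1), ?_⟩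
      change (b₀ * z ^ (i : ℕ)) • (z ^ t i • d i * (d i)⁻¹) = z ^ t i • d i * (d i)⁻¹
      rw [smul_mul', smul_inv', hcomm_pow _ (hb_i _) _ _ hdA, h.2]) hprod3
    have hall : ∀ i ∈ s, d i = 1 := by
      intro i his
      have h := hd i (Finset.mem_insert_of_mem his)
      have hdA : d i ∈ A := hDA h.1
      have h1 : z ^ t i • d i = d i := mul_inv_eq_one.1 (hih i his)
      have h2 : z • d i = d i := fix_of_pow_fix A z hinvz hq (htq i his) hdA h1
      exact fix_phi_trivial hcop A z hq h.1 h2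
    intro i hi
    rcases Finset.mem_insert.1 hi with rfl | his
    · rw [Finset.prod_eq_one hall, mul_one] at hprod
      exact hprod
    · exact hall i his

lemma prod_card_le {q : ℕ} [hq' : Fact q.Prime] [Finite V] (hcop : (Nat.card V).Coprime q)
    (A : Subgroup V) (z b₀ : B)
    (hinvz : ∀ v ∈ A, z • v ∈ A) (hinvb : ∀ v ∈ A, b₀ • v ∈ A)
    (hq : ∀ v ∈ A, z ^ q • v = v) (hcomm : ∀ b : B, ∀ v ∈ A, b • z • v = z • b • v) :
    ∏ i : Fin q, Nat.card (A.map (phi z : V →* V) ⊓ fixS (b₀ * z ^ (i : ℕ)) : Subgroup V)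
      ≤ Nat.card (A.map (phi z : V →* V)) := by
  classical
  set D := A.map (phi z : V →* V) with hD
  set M : Fin q → Subgroup V := fun i => D ⊓ fixS (b₀ * z ^ (i : ℕ)) with hM
  have hcard : Nat.card (∀ i, M i) = ∏ i : Fin q, Nat.card (M i) := by
    rw [Nat.card_pi]
  rw [← hcard]
  let f : (∀ i, M i) → D := fun x =>
    ⟨∏ i, (x i : V), D.prod_mem fun i _ => (x i).2.1⟩
  have hf : Function.Injective f := by
    intro x y hxy
    have h1 : ∏ i, (x i : V) = ∏ i, (y i : V) := congrArg Subtype.val hxy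
    have h2 : ∏ i, ((x i : V) * (y i : V)⁻¹) = 1 := by
      rw [Finset.prod_mul_distrib, Finset.prod_inv_distrib, h1, mul_inv_cancel]
    have h3 := indep hcop A z b₀ hinvz hinvb hq hcomm Finset.univ
      (fun i => (x i : V) * (y i : V)⁻¹) (by
        intro i _
        have hxi := (x i).2
        have hyi := (y i).2
        exact ⟨D.mul_mem hxi.1 (D.inv_mem hyi.1),
          ((M i).mul_mem hxi ((M i).inv_mem hyi)).2⟩) h2
    funext i
    exact Subtype.ext (mul_inv_eq_one.1 (h3 i (Finset.mem_univ i)))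
  exact Nat.card_le_card_of_injective f hf

lemma exists_central {q : ℕ} [hq' : Fact q.Prime] [Finite B] (hB : IsPGroup q B) (A : Subgroup V)
    (hinv : ∀ b : B, ∀ v ∈ A, b • v ∈ A) (hne : ∃ b : B, ∃ v ∈ A, b • v ≠ v) :
    ∃ z : B, (∃ v ∈ A, z • v ≠ v) ∧ (∀ v ∈ A, z ^ q • v = v) ∧
      ∀ b : B, ∀ v ∈ A, b • z • v = z • b • v := by
  let K : Subgroup B :=
    { carrier := {b | ∀ v ∈ A, b • v = v}
      mul_mem' := by
        intro a b ha hb v hv
        change (a * b) • v = v
        rw [mul_smul, hb v hv, ha v hv]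
      one_mem' := by
        intro v _
        simp
      inv_mem' := by
        intro a ha v hv
        change a⁻¹ • v = v
        conv_lhs => rw [← ha v hv]
        simp }
  have hKmem : ∀ b : B, b ∈ K ↔ ∀ v ∈ A, b • v = v := fun b => Iff.rfl
  have hK : K.Normal := by
    constructor
    intro k hk g v hv
    change (g * k * g⁻¹) • v = v
    rw [mul_smul, mul_smul, (hKmem k).1 hk _ (hinv g⁻¹ v hv)]
    simp
  have hQ : IsPGroup q (B ⧸ K) := hB.to_quotient K
  haveI : Nontrivial (B ⧸ K) := by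
    obtain ⟨b, v, hv, hbv⟩ := hne
    refine ⟨⟨(b : B ⧸ K), 1, ?_⟩⟩
    intro h
    exact hbv ((hKmem b).1 ((QuotientGroup.eq_one_iff b).1 h) v hv)
  haveI : Nontrivial (Subgroup.center (B ⧸ K)) := hQ.center_nontrivial
  have hCp : IsPGroup q (Subgroup.center (B ⧸ K)) := hQ.to_subgroup _
  have hdvd : q ∣ Nat.card (Subgroup.center (B ⧸ K)) := by
    rcases hCp.card_eq_or_dvd with h | h
    · exact absurd h (Finite.one_lt_card (α := Subgroup.center (B ⧸ K))).ne'
    · exact h
  obtain ⟨c, hc⟩ := exists_prime_orderOf_dvd_card' q hdvd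
  obtain ⟨z, hz⟩ := QuotientGroup.mk_surjective (c : B ⧸ K)
  have hc1 : (c : B ⧸ K) ≠ 1 := by
    intro h
    have : c = 1 := Subtype.ext h
    rw [this, orderOf_one] at hc
    exact hq'.out.one_lt.ne hc
  have hcq : (c : B ⧸ K) ^ q = 1 := by
    have := pow_orderOf_eq_one c
    rw [hc] at this
    exact congrArg Subtype.val this
  refine ⟨z, ?_, ?_, ?_⟩
  · by_contra hcon
    push_neg at hcon
    apply hc1
    rw [← hz]
    exact (QuotientGroup.eq_one_iff z).2 hcon
  · have : z ^ q ∈ K := by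
      rw [← QuotientGroup.eq_one_iff, QuotientGroup.mk_pow, hz]
      exact hcq
    exact this
  · intro b v hv
    have hcen : (b : B ⧸ K) * (c : B ⧸ K) = (c : B ⧸ K) * (b : B ⧸ K) :=
      (Subgroup.mem_center_iff.1 c.2 _)
    rw [← hz, ← QuotientGroup.mk_mul, ← QuotientGroup.mk_mul] at hcen
    have hk : (b * z)⁻¹ * (z * b) ∈ K := QuotientGroup.eq.1 hcen
    have h1 : z * b = (b * z) * ((b * z)⁻¹ * (z * b)) := by group
    rw [← mul_smul, ← mul_smul, h1, mul_smul _ ((b * z)⁻¹ * (z * b)), (hKmem _).1 hk v hv]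

theorem main_aux {q : ℕ} [hq' : Fact q.Prime] [Finite B] [Finite V] (hB : IsPGroup q B)
    (hcop : (Nat.card V).Coprime q) (hfix : ∀ v : V, (∀ b : B, b • v = v) → v = 1) :
    ∀ (n : ℕ) (A : Subgroup V), Nat.card A = n → (∀ b : B, ∀ v ∈ A, b • v ∈ A) →
      ∃ b : B, (Nat.card (A ⊓ fixS b : Subgroup V)) ^ q ≤ Nat.card A := by
  intro n
  induction n using Nat.strong_induction_on with
  | _ n ih =>
    intro A hAn hinv
    by_cases hbot : A = ⊥
    · subst hbot
      refine ⟨1, ?_⟩
      have : ((⊥ : Subgroup V) ⊓ fixS (1 : B) : Subgroup V) = ⊥ := bot_inf_eq _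
      rw [this]
      simp
    have hne : ∃ b : B, ∃ v ∈ A, b • v ≠ v := by
      by_contra hcon
      push_neg at hcon
      apply hbot
      rw [eq_bot_iff]
      intro v hv
      exact hfix v (fun b => hcon b v hv)
    obtain ⟨z, ⟨v₀, hv₀, hzv₀⟩, hq, hcomm⟩ := exists_central hB A hinv hne
    set A₁ : Subgroup V := A ⊓ fixS z with hA₁
    set D : Subgroup V := A.map (phi z : V →* V) with hD
    have hker : ∀ v, v ∈ (phi z : V →* V).ker ↔ z • v = v := fun v => by
      rw [MonoidHom.mem_ker, phi_eq_one]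
    have hA₁eq : (A ⊓ (phi z : V →* V).ker : Subgroup V) = A₁ := by
      ext v
      simp only [Subgroup.mem_inf, hker, hA₁, mem_fixS]
    have hcard : Nat.card A = Nat.card A₁ * Nat.card D := by
      have := card_eq (phi z : V →* V) A
      rwa [hA₁eq] at this
    have hD1 : 1 < Nat.card D := by
      rw [Subgroup.one_lt_card_iff_ne_bot]
      intro h
      have : phi z v₀ ∈ D := ⟨v₀, hv₀, rfl⟩
      rw [h, Subgroup.mem_bot, phi_eq_one] at this
      exact hzv₀ this
    have hA₁pos : 0 < Nat.card A₁ := Nat.card_pos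
    have hlt : Nat.card A₁ < n := by
      rw [← hAn, hcard]
      exact lt_mul_of_one_lt_right hA₁pos hD1
    have hinv₁ : ∀ b : B, ∀ v ∈ A₁, b • v ∈ A₁ := by
      rintro b v ⟨hv, hzv⟩
      refine ⟨hinv b v hv, ?_⟩
      have hzv' : z • v = v := hzv
      change z • b • v = b • v
      rw [← hcomm b v hv, hzv']
    obtain ⟨b₀, hb₀⟩ := ih _ hlt A₁ rfl hinv₁
    have hprod := prod_card_le hcop A z b₀ (hinv z) (hinv b₀) hq hcomm
    -- pigeonhole
    haveI : Nonempty (Fin q) := ⟨⟨0, hq'.out.pos⟩⟩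
    obtain ⟨i, -, hi⟩ := Finset.exists_min_image (Finset.univ : Finset (Fin q))
      (fun i : Fin q => Nat.card (D ⊓ fixS (b₀ * z ^ (i : ℕ)) : Subgroup V)) Finset.univ_nonempty
    have hpow : (Nat.card (D ⊓ fixS (b₀ * z ^ (i : ℕ)) : Subgroup V)) ^ q ≤ Nat.card D := by
      refine le_trans ?_ hprod
      calc (Nat.card (D ⊓ fixS (b₀ * z ^ (i : ℕ)) : Subgroup V)) ^ q
          = ∏ _j : Fin q, Nat.card (D ⊓ fixS (b₀ * z ^ (i : ℕ)) : Subgroup V) := by simp
        _ ≤ _ := Finset.prod_le_prod' fun j _ => hi j (Finset.mem_univ j)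
    refine ⟨b₀ * z ^ (i : ℕ), ?_⟩
    set b := b₀ * z ^ (i : ℕ) with hb
    set A' : Subgroup V := A ⊓ fixS b with hA'
    have hzpow : ∀ n : ℕ, ∀ v : V, z • v = v → z ^ n • v = v := by
      intro n v hv
      induction n with
      | zero => simp
      | succ n ih => rw [pow_succ, mul_smul, hv, ih]
    have h1 : (A' ⊓ (phi z : V →* V).ker : Subgroup V) ≤ A₁ ⊓ fixS b₀ := by
      rintro v ⟨⟨hvA, hvb⟩, hvk⟩
      have hzv : z • v = v := (hker v).1 hvk
      have hvb' : b • v = v := hvb
      refine ⟨⟨hvA, hzv⟩, ?_⟩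
      change b₀ • v = v
      rw [hb, mul_smul, hzpow _ v hzv] at hvb'
      exact hvb'
    have h2 : A'.map (phi z : V →* V) ≤ D ⊓ fixS b := by
      rintro _ ⟨v, ⟨hvA, hvb⟩, rfl⟩
      have hvb' : b • v = v := hvb
      refine ⟨⟨v, hvA, rfl⟩, ?_⟩
      change b • phi z v = phi z v
      rw [phi_apply, smul_mul', smul_inv', hvb', hcomm b v hvA, hvb']
    have h3 : Nat.card A' ≤ Nat.card (A₁ ⊓ fixS b₀ : Subgroup V) * Nat.card (D ⊓ fixS b : Subgroup V) := by
      rw [card_eq (phi z : V →* V) A']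
      exact Nat.mul_le_mul (Subgroup.card_le_of_le h1) (Subgroup.card_le_of_le h2)
    calc (Nat.card A') ^ q
        ≤ (Nat.card (A₁ ⊓ fixS b₀ : Subgroup V) * Nat.card (D ⊓ fixS b : Subgroup V)) ^ q :=
          Nat.pow_le_pow_left h3 q
      _ = (Nat.card (A₁ ⊓ fixS b₀ : Subgroup V)) ^ q * (Nat.card (D ⊓ fixS b : Subgroup V)) ^ q :=
          mul_pow _ _ _
      _ ≤ Nat.card A₁ * Nat.card D := Nat.mul_le_mul hb₀ hpow
      _ = Nat.card A := hcard.symm

end SmallFixAux

open SmallFixAux in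
/-- X = P8 (Lib/S4993/SmallFix.lean): `q`-group `B` acting on a finite abelian group `V` of order
prime to `q`, no nontrivial common fixed point. Then some `b` has `|C_V(b)|^q ≤ |V|`. -/
theorem exists_small_fixed {B V : Type*} [Group B] [Finite B] [CommGroup V] [Finite V]
    [MulDistribMulAction B V] {q : ℕ} [Fact q.Prime] (hB : IsPGroup q B)
    (hcop : Nat.Coprime (Nat.card V) q) (hfix : ∀ v : V, (∀ b : B, b • v = v) → v = 1) :
    ∃ b : B, (Nat.card {v : V // b • v = v}) ^ q ≤ Nat.card V := by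
  obtain ⟨b, hb⟩ := main_aux hB hcop hfix _ (⊤ : Subgroup V) rfl (fun _ _ _ => trivial)
  refine ⟨b, ?_⟩
  have h1 : Nat.card ((⊤ : Subgroup V) ⊓ fixS b : Subgroup V) = Nat.card {v : V // b • v = v} := by
    rw [top_inf_eq]
    exact rfl
  rw [h1, Nat.card_congr (Subgroup.topEquiv (G := V)).toEquiv] at hb
  exact hb

end Cfsg.Agent.Lib.S4993
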