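import Mathlib
import Cfsg.Agent.Lib.S4993.Defs
import Cfsg.Agent.Lib.S4993.SmallFix

set_option autoImplicit false
set_option linter.unusedSectionVars false
set_option linter.unusedVariables false
set_option linter.style.haveILetI false

/-! S4993, piece P9. -/

namespace Cfsg.Agent.Lib.S4993

open Cfsg

universe u

variable {G : Type u} [Group G]

/-- X = P9: uses `exists_small_fixed` on `V = R / T` (`Q'` acts by conjugation). -/
theorem exists_le_index_sq [Finite G] {p q : ℕ} [Fact p.Prime] [Fact q.Prime] (hpq : p ≠ q)
    (R T : Subgroup G) (hTR : T ≤ R) [R.Normal] [T.Normal] (hR : IsPGroup p R)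
    (hRab : ∀ x ∈ R, ∀ y ∈ R, x * y * x⁻¹ * y⁻¹ ∈ T) (Q' : Subgroup G) (hQ : IsPGroup q Q')
    (hfix : ∀ x ∈ R, (∀ b ∈ Q', x * b * x⁻¹ * b⁻¹ ∈ T) → x ∈ T) :
    ∃ b ∈ Q', Nat.card R ≤
      Nat.card T * ((Subgroup.centralizer ({b} : Set G)).relIndex R) ^ 2 := by
  classical
  have hp : p.Prime := Fact.out
  have hq : q.Prime := Fact.out
  let N : Subgroup R := T.subgroupOf R
  have hNmem : ∀ x : R, x ∈ N ↔ (x : G) ∈ T := fun x => Subgroup.mem_subgroupOf
  haveI hNn : N.Normal := inferInstance
  let V := (R : Type u) ⧸ N
  letI instCG : CommGroup V :=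
    { (QuotientGroup.Quotient.group N) with
      mul_comm := by
        intro a b
        induction a using QuotientGroup.induction_on with
        | H x =>
          induction b using QuotientGroup.induction_on with
          | H y =>
            show ((x * y : R) : V) = ((y * x : R) : V)
            rw [QuotientGroup.eq, hNmem]
            have := hRab (y : G)⁻¹ (R.inv_mem y.2) (x : G)⁻¹ (R.inv_mem x.2)
            simpa [mul_assoc] using this }
  -- the conjugation action of `Q'` on `R`
  let cj : ↥Q' → R → R := fun b x =>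
    ⟨(b : G) * x * (b : G)⁻¹, ‹R.Normal›.conj_mem _ x.2 _⟩
  have hcjN : ∀ b x, x ∈ N → cj b x ∈ N := by
    intro b x hx
    rw [hNmem] at hx ⊢
    exact ‹T.Normal›.conj_mem _ hx _
  have hcjmul : ∀ b x y, cj b (x * y) = cj b x * cj b y := by
    intro b x y
    apply Subtype.ext
    show (b : G) * ((x : G) * y) * (b : G)⁻¹ = ((b : G) * x * (b : G)⁻¹) * ((b : G) * y * (b : G)⁻¹)
    group
  let hm : ↥Q' → (R →* R) := fun b =>
    { toFun := cj b
      map_one' := by
        apply Subtype.ext
        show (b : G) * 1 * (b : G)⁻¹ = 1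
        group
      map_mul' := hcjmul b }
  have hle : ∀ b, N ≤ N.comap (hm b) := fun b x hx => hcjN b x hx
  let sm : ↥Q' → V → V := fun b v => QuotientGroup.map N N (hm b) (hle b) v
  have hsm : ∀ b (x : R), sm b (x : V) = ((cj b x : R) : V) := fun b x => rfl
  letI act : MulDistribMulAction ↥Q' V :=
    { smul := sm
      one_smul := by
        intro v
        induction v using QuotientGroup.induction_on with
        | H x =>
          show sm 1 (x : V) = (x : V)
          rw [hsm]
          congr 1
          apply Subtype.ext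
          show ((1 : ↥Q') : G) * x * ((1 : ↥Q') : G)⁻¹ = x
          simp
      mul_smul := by
        intro a b v
        induction v using QuotientGroup.induction_on with
        | H x =>
          show sm (a * b) (x : V) = sm a (sm b (x : V))
          rw [hsm, hsm, hsm]
          congr 1
          apply Subtype.ext
          show ((a * b : ↥Q') : G) * x * ((a * b : ↥Q') : G)⁻¹ =
            (a : G) * ((b : G) * x * (b : G)⁻¹) * (a : G)⁻¹
          simp only [Subgroup.coe_mul]
          group
      smul_mul := by
        intro b u v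
        exact map_mul (QuotientGroup.map N N (hm b) (hle b)) u v
      smul_one := by
        intro b
        exact map_one (QuotientGroup.map N N (hm b) (hle b)) }
  have hsmul : ∀ b (x : R), b • (x : V) = ((cj b x : R) : V) := fun b x => rfl
  -- the order of `V`
  have hVp : IsPGroup p V := hR.to_quotient N
  have hcop : Nat.Coprime (Nat.card V) q := by
    obtain ⟨k, hk⟩ := IsPGroup.iff_card.1 hVp
    rw [hk]
    exact Nat.Coprime.pow_left _ ((Nat.coprime_primes hp hq).2 hpq)
  have hfixV : ∀ v : V, (∀ b : ↥Q', b • v = v) → v = 1 := by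
    intro v hv
    induction v using QuotientGroup.induction_on with
    | H x =>
      have hxT : (x : G) ∈ T := by
        refine hfix x x.2 ?_
        intro b hb
        have h1 := hv ⟨b, hb⟩
        rw [hsmul, QuotientGroup.eq, hNmem] at h1
        have h2 : (((cj ⟨b, hb⟩ x)⁻¹ * x : R) : G) = b * (x : G)⁻¹ * b⁻¹ * x := by
          show ((b : G) * x * (b : G)⁻¹)⁻¹ * x = _
          group
        rw [h2] at h1
        have h3 := ‹T.Normal›.conj_mem _ h1 (x : G)
        have h4 : (x : G) * (b * (x : G)⁻¹ * b⁻¹ * x) * (x : G)⁻¹ = x * b * (x : G)⁻¹ * b⁻¹ := by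
          group
        rwa [h4] at h3
      exact (QuotientGroup.eq_one_iff x).2 ((hNmem x).2 hxT)
  obtain ⟨b, hb⟩ := exists_small_fixed (B := ↥Q') (V := V) (q := q) hQ hcop hfixV
  refine ⟨b, b.2, ?_⟩
  set c := Nat.card {v : V // b • v = v} with hc
  let C : Subgroup R := (Subgroup.centralizer ({(b : G)} : Set G)).subgroupOf R
  have hCmem : ∀ x : R, x ∈ C ↔ (b : G) * x = x * b := by
    intro x
    rw [Subgroup.mem_subgroupOf, Subgroup.mem_centralizer_singleton_iff]
    exact eq_comm
  -- the map `C → V`
  let g : ↥C →* V := (QuotientGroup.mk' N).comp C.subtype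
  have hcardC : Nat.card C = Nat.card g.ker * Nat.card g.range := by
    rw [← Subgroup.index_ker g, mul_comm, Subgroup.index_mul_card]
  have hker : Nat.card g.ker ≤ Nat.card T := by
    refine Nat.card_le_card_of_injective
      (fun x : g.ker => (⟨((x : C) : R), ?_⟩ : T)) ?_
    · have hx : g (x : C) = 1 := x.2
      have : ((((x : C) : R)) : V) = 1 := hx
      exact (hNmem _).1 ((QuotientGroup.eq_one_iff _).1 this)
    · intro x y hxy
      have h1 : (((x : C) : R) : G) = (((y : C) : R) : G) := Subtype.mk.inj hxy
      exact Subtype.ext (Subtype.ext (Subtype.ext h1))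
  have hrange : Nat.card g.range ≤ c := by
    refine Nat.card_le_card_of_injective
      (fun v : g.range => (⟨(v : V), ?_⟩ : {v : V // b • v = v})) ?_
    · obtain ⟨x, hx⟩ := v.2
      rw [← hx]
      show b • (((x : C) : R) : V) = (((x : C) : R) : V)
      rw [hsmul]
      congr 1
      apply Subtype.ext
      show (b : G) * ((x : C) : R) * (b : G)⁻¹ = ((x : C) : R)
      rw [(hCmem _).1 x.2]
      group
    · intro x y hxy
      have h1 : (x : V) = (y : V) := Subtype.mk.inj hxy
      exact Subtype.ext h1
  have hcardR : Nat.card R = Nat.card V * Nat.card T := by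
    have h1 : Nat.card N = Nat.card T := Nat.card_congr (Subgroup.subgroupOfEquivOfLe hTR).toEquiv
    rw [← h1]
    exact Subgroup.card_eq_card_quotient_mul_card_subgroup N
  have hi : Nat.card C * C.index = Nat.card R := Subgroup.card_mul_index C
  have hirel : (Subgroup.centralizer ({(b : G)} : Set G)).relIndex R = C.index := rfl
  rw [hirel]
  set i := C.index with hidef
  have hT0 : 0 < Nat.card T := Nat.card_pos
  have hc0 : 0 < c := by
    have : Nonempty {v : V // b • v = v} := ⟨⟨1, smul_one b⟩⟩
    exact Nat.card_pos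
  have hV : Nat.card V ≤ c * i := by
    have h1 : Nat.card V * Nat.card T ≤ (c * i) * Nat.card T := by
      rw [← hcardR, ← hi, hcardC]
      calc Nat.card g.ker * Nat.card g.range * i ≤ Nat.card T * c * i :=
            Nat.mul_le_mul_right _ (Nat.mul_le_mul hker hrange)
        _ = (c * i) * Nat.card T := by ring
    exact Nat.le_of_mul_le_mul_right h1 hT0
  have hq2 : 2 ≤ q := hq.two_le
  have hsq : c ^ 2 ≤ Nat.card V := (Nat.pow_le_pow_right hc0 hq2).trans hb
  have hci : c ≤ i := by
    have : c * c ≤ c * i := by
      calc c * c = c ^ 2 := (pow_two c).symm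
        _ ≤ Nat.card V := hsq
        _ ≤ c * i := hV
    exact Nat.le_of_mul_le_mul_left this hc0
  have hVi : Nat.card V ≤ i ^ 2 := by
    calc Nat.card V ≤ c * i := hV
      _ ≤ i * i := Nat.mul_le_mul_right _ hci
      _ = i ^ 2 := (pow_two i).symm
  rw [hcardR, mul_comm]
  exact Nat.mul_le_mul_left _ hVi

end Cfsg.Agent.Lib.S4993
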