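import Mathlib
import Cfsg.Prelude.Def_Solvable

/-! S4993 piece P10b: `Q'F` normal with `p`-group quotient. -/

set_option autoImplicit false

namespace Cfsg.Agent.Lib.S4993

open scoped Pointwise

universe u

variable {G : Type u} [Group G]

/-- X = P10b. `Q'F` normal, `G/Q'F` a `p`-group. -/
theorem sup_normal_of_commuting [Finite G] {p : ℕ} [Fact p.Prime] (P' Q' F : Subgroup G) [F.Normal]
    (hP : IsPGroup p P') (hc : ∀ a ∈ P', ∀ b ∈ Q', a * b = b * a) (htop : P' ⊔ Q' ⊔ F = ⊤) :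
    (Q' ⊔ F).Normal ∧ ∀ _h : (Q' ⊔ F).Normal, IsPGroup p (G ⧸ (Q' ⊔ F)) := by
  set J : Subgroup G := Q' ⊔ F with hJ
  have hmemJ : ∀ x : G, x ∈ J ↔ ∃ q ∈ Q', ∃ f ∈ F, x = q * f := by
    intro x
    have h1 : (J : Set G) = (Q' : Set G) * (F : Set G) := Subgroup.mul_normal Q' F
    constructor
    · intro hx
      have hx' : x ∈ (J : Set G) := hx
      rw [h1] at hx'
      obtain ⟨q, hq, f, hf, rfl⟩ := Set.mem_mul.mp hx'
      exact ⟨q, hq, f, hf, rfl⟩
    · rintro ⟨q, hq, f, hf, rfl⟩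
      exact J.mul_mem (le_sup_left (a := Q') (b := F) hq) (le_sup_right (a := Q') (b := F) hf)
  -- conjugation by `P'` preserves `J`
  have hPconj : ∀ a ∈ P', ∀ x ∈ J, a * x * a⁻¹ ∈ J := by
    intro a ha x hx
    obtain ⟨q, hq, f, hf, rfl⟩ := (hmemJ x).mp hx
    refine (hmemJ _).mpr ⟨q, hq, a * f * a⁻¹, ‹F.Normal›.conj_mem f hf a, ?_⟩
    calc a * (q * f) * a⁻¹ = (a * q) * f * a⁻¹ := by group
      _ = (q * a) * f * a⁻¹ := by rw [hc a ha q hq]
      _ = q * (a * f * a⁻¹) := by group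
  have hP_le : P' ≤ (Subgroup.normalizer (J : Set G)) := by
    intro a ha
    rw [Subgroup.mem_normalizer_iff]
    intro x
    constructor
    · exact hPconj a ha x
    · intro h
      have := hPconj a⁻¹ (P'.inv_mem ha) _ h
      simpa [mul_assoc] using this
  have hJ_le : J ≤ (Subgroup.normalizer (J : Set G)) := Subgroup.le_normalizer
  have hnorm_top : (Subgroup.normalizer (J : Set G)) = ⊤ := by
    rw [eq_top_iff, ← htop, sup_assoc]
    exact sup_le hP_le hJ_le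
  have hN : J.Normal := Subgroup.normalizer_eq_top_iff.mp hnorm_top
  refine ⟨hN, fun hN' => ?_⟩
  intro x
  obtain ⟨g, rfl⟩ := QuotientGroup.mk_surjective x
  have hg : g ∈ ((P' ⊔ J : Subgroup G) : Set G) := by
    have : P' ⊔ J = ⊤ := by rw [hJ, ← sup_assoc, htop]
    rw [this]; trivial
  rw [Subgroup.mul_normal] at hg
  obtain ⟨a, ha, j, hj, rfl⟩ := Set.mem_mul.mp hg
  obtain ⟨k, hk⟩ := hP ⟨a, ha⟩
  refine ⟨k, ?_⟩
  have hk' : a ^ p ^ k = 1 := by simpa [Subtype.ext_iff] using hk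
  have h1 : ((a * j : G) : G ⧸ J) = (a : G ⧸ J) := by
    rw [QuotientGroup.mk_mul, (QuotientGroup.eq_one_iff j).mpr hj, mul_one]
  rw [h1, ← QuotientGroup.mk_pow, hk']
  rfl

end Cfsg.Agent.Lib.S4993
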